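import Cfsg.Agent.H44.ClassSizes.CC
import Cfsg.Agent.H7.ZassFeit
import Cfsg.Agent.H7.ZassEvenQ
import Cfsg.Agent.H6.FieldEquiv

/-!
# A group with abelian self-centralising Sylow `p`-subgroups of order `q` and order `q (q² - 1) / d`

It is `PSL₂(q)` unless it has a regular normal subgroup of order `q + 1`.
-/

set_option autoImplicit false

namespace Cfsg.Agent.H44.ClassSizes

open MulAction
open scoped Pointwise

variable {H : Type*} [Group H] [Finite H] {p q s : ℕ} [Fact p.Prime]

/-- A Sylow subgroup fixed by a non-trivial element of another one is equal to it. -/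
lemma CC.eq_of_smul (h : CC H p q s) {P S : Sylow p H} {x : H} (hx : x ∈ (P : Subgroup H))
    (hx1 : x ≠ 1) (hS : x • S = S) : S = P := by
  have hxS : x ∈ (S : Subgroup H) := by
    have hz : IsPGroup p (Subgroup.zpowers x) := P.2.to_le (Subgroup.zpowers_le.2 hx)
    have hxn : x ∈ Subgroup.normalizer ((S : Subgroup H) : Set H) := Sylow.smul_eq_iff_mem_normalizer.1 hS
    exact (hz.inf_normalizer_sylow S ▸ ⟨Subgroup.mem_zpowers x, hxn⟩ :
      x ∈ Subgroup.zpowers x ⊓ (S : Subgroup H)).2
  have hle : ∀ T : Sylow p H, x ∈ (T : Subgroup H) →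
      (T : Subgroup H) = Subgroup.centralizer ({x} : Set H) := fun T hT =>
    Subgroup.eq_of_le_of_card_ge (fun y hy => Subgroup.mem_centralizer_singleton_iff.2
      (h.sylow_comm T y hy x hT).eq) (by rw [h.cent x hx1 (pow_of_mem_sylow hx), h.sylow_card T])
  exact Sylow.ext ((hle S hxS).trans (hle P hx).symm)

lemma CC.mem_of_commute (h : CC H p q s) {P : Sylow p H} {x g : H} (hx : x ∈ (P : Subgroup H))
    (hx1 : x ≠ 1) (hg : Commute g x) : g ∈ (P : Subgroup H) := by
  have : (P : Subgroup H) = Subgroup.centralizer ({x} : Set H) :=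
    Subgroup.eq_of_le_of_card_ge (fun y hy => Subgroup.mem_centralizer_singleton_iff.2
      (h.sylow_comm P y hy x hx).eq) (by rw [h.cent x hx1 (pow_of_mem_sylow hx), h.sylow_card P])
  rw [this]
  exact Subgroup.mem_centralizer_singleton_iff.2 hg.eq

lemma CC.one_lt (h : CC H p q s) : 1 < q := by
  obtain ⟨f, hf, rfl⟩ := h.pow
  exact Nat.one_lt_pow hf.ne' h.prime.one_lt

/-- the number of Sylow subgroups is one more than a multiple of `q` -/
lemma CC.card_sub_one (h : CC H p q s) (P : Sylow p H) :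
    ∃ k : ℕ, Nat.card {S : Sylow p H // S ≠ P} = q * k := by
  letI : MulAction (P : Subgroup H) {S : Sylow p H // S ≠ P} :=
    { smul := fun g S => ⟨g.1 • S.1, fun e => S.2 (by
        have e' : g.1⁻¹ • P = P := Sylow.smul_eq_iff_mem_normalizer.2
          (Subgroup.le_normalizer (inv_mem g.2))
        rwa [← smul_left_cancel_iff g.1⁻¹, inv_smul_smul, e'] at e)⟩
      one_smul := fun S => Subtype.ext (one_smul H S.1)
      mul_smul := fun a b S => Subtype.ext (mul_smul a.1 b.1 S.1) }
  have hfree : ∀ S : {S : Sylow p H // S ≠ P}, stabilizer (P : Subgroup H) S = ⊥ := fun S =>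
    (Subgroup.eq_bot_iff_forall _).2 fun g hg => by
      by_contra hg1
      exact S.2 (h.eq_of_smul g.2 (fun e => hg1 (Subtype.ext e)) (congrArg Subtype.val hg))
  haveI := Fintype.ofFinite (MulAction.orbitRel.Quotient (P : Subgroup H) {S : Sylow p H // S ≠ P})
  refine ⟨Nat.card (MulAction.orbitRel.Quotient (P : Subgroup H) {S : Sylow p H // S ≠ P}), ?_⟩
  rw [Nat.card_congr (MulAction.selfEquivSigmaOrbitsQuotientStabilizer (P : Subgroup H)
    {S : Sylow p H // S ≠ P}), Nat.card_sigma]
  rw [Finset.sum_congr rfl (fun ω _ => show _ = q by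
    rw [hfree, ← Subgroup.index, Subgroup.index_bot, h.sylow_card]), Finset.sum_const, smul_eq_mul,
    Nat.card_eq_fintype_card, Finset.card_univ, mul_comm]

/-- `|N(P) : P| ≤ q - 1` -/
lemma CC.relIndex_le (h : CC H p q s) (P : Sylow p H) :
    (P : Subgroup H).relIndex (Subgroup.normalizer ((P : Subgroup H) : Set H)) ≤ q - 1 := by
  classical
  set N := Subgroup.normalizer ((P : Subgroup H) : Set H) with hN
  haveI : Nontrivial (P : Subgroup H) := Finite.one_lt_card_iff_nontrivial.1 (h.sylow_card P ▸ h.one_lt)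
  obtain ⟨⟨x, hx⟩, hx1⟩ := exists_ne (1 : (P : Subgroup H))
  let f : N ⧸ (P : Subgroup H).subgroupOf N → {y : (P : Subgroup H) // y ≠ 1} :=
    Quotient.lift (fun g => ⟨⟨g.1 * x * g.1⁻¹, (Subgroup.mem_normalizer_iff.1 g.2 x).1 hx⟩,
      fun e => hx1 (Subtype.ext (conj_eq_one_iff.1 (congrArg Subtype.val e)))⟩) (by
      intro a b hab
      have hab' : a⁻¹ * b ∈ (P : Subgroup H).subgroupOf N := QuotientGroup.leftRel_apply.1 hab
      have hc : Commute (a.1⁻¹ * b.1) x := h.sylow_comm P _ hab' x hx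
      refine Subtype.ext (Subtype.ext ?_)
      calc a.1 * x * a.1⁻¹ = a.1 * (x * (a.1⁻¹ * b.1)) * b.1⁻¹ := by group
        _ = a.1 * ((a.1⁻¹ * b.1) * x) * b.1⁻¹ := by rw [hc.eq]
        _ = b.1 * x * b.1⁻¹ := by group)
  have hf : Function.Injective f := by
    intro a b
    induction a using Quotient.inductionOn with
    | _ a =>
      induction b using Quotient.inductionOn with
      | _ b =>
        intro hab
        have e : a.1 * x * a.1⁻¹ = b.1 * x * b.1⁻¹ := congrArg (fun y => (y.1.1 : H)) hab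
        refine Quotient.sound (QuotientGroup.leftRel_apply.2 (h.mem_of_commute hx
          (fun e' => hx1 (Subtype.ext e')) ?_))
        calc a.1⁻¹ * b.1 * x = a.1⁻¹ * (b.1 * x * b.1⁻¹) * b.1 := by group
          _ = a.1⁻¹ * (a.1 * x * a.1⁻¹) * b.1 := by rw [e]
          _ = x * (a.1⁻¹ * b.1) := by group
  calc _ ≤ Nat.card {y : (P : Subgroup H) // y ≠ 1} := Nat.card_le_card_of_injective f hf
    _ = q - 1 := by
      haveI := Fintype.ofFinite (P : Subgroup H)
      rw [Nat.card_eq_fintype_card, Fintype.card_subtype_compl, Fintype.card_subtype_eq,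
        ← Nat.card_eq_fintype_card, h.sylow_card]

lemma CC.numbers (h : CC H p q s) (P : Sylow p H) {d : ℕ} (hd : 0 < d) (hd2 : d ≤ 2)
    (hs : d * s = q ^ 2 - 1) :
    Nat.card (Sylow p H) = q + 1 ∧
      d * (P : Subgroup H).relIndex (Subgroup.normalizer ((P : Subgroup H) : Set H)) = q - 1 := by
  classical
  obtain ⟨k, hk⟩ := h.card_sub_one P
  have he := h.relIndex_le P
  set e := (P : Subgroup H).relIndex (Subgroup.normalizer ((P : Subgroup H) : Set H)) with hedef
  haveI := Fintype.ofFinite (Sylow p H)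
  have hn : Nat.card (Sylow p H) = q * k + 1 := by
    have := hk
    rw [Nat.card_eq_fintype_card, Fintype.card_subtype_compl, Fintype.card_subtype_eq] at this
    have hpos : 0 < Fintype.card (Sylow p H) := Fintype.card_pos
    rw [Nat.card_eq_fintype_card]; omega
  have hse : Nat.card (Sylow p H) * e = s := by
    have h1 : e * Nat.card (Sylow p H) = (P : Subgroup H).index := by
      rw [P.card_eq_index_normalizer, hedef]
      exact Subgroup.relIndex_mul_index Subgroup.le_normalizer
    have h2 := (P : Subgroup H).card_mul_index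
    rw [h.sylow_card, h.card] at h2
    rw [mul_comm, h1]
    exact Nat.eq_of_mul_eq_mul_left (by have := h.one_lt; omega) h2
  have hq := h.one_lt
  have hq2 : 1 ≤ q ^ 2 := Nat.one_le_pow _ _ (by omega)
  rw [← hse, hn] at hs
  have heq : d * e + 1 + q * (k * (d * e)) = q ^ 2 := by
    have : d * ((q * k + 1) * e) + 1 = q ^ 2 := by omega
    rw [← this]; ring
  have hdvd : q ∣ d * e + 1 := by
    rw [Nat.dvd_add_iff_left (Dvd.intro (k * (d * e)) rfl), heq]
    exact dvd_pow_self q two_ne_zero
  obtain ⟨c, hc⟩ := hdvd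
  have hle : d * e ≤ 2 * (q - 1) := Nat.mul_le_mul hd2 he
  have hc1 : c = 1 := by
    rcases c with _ | _ | c
    · simp at hc
    · rfl
    · exfalso
      have : q * 2 ≤ q * (c + 1 + 1) := Nat.mul_le_mul_left _ (by omega)
      omega
  subst hc1
  have hde : d * e = q - 1 := by omega
  refine ⟨?_, hde⟩
  rw [hn]
  have h3 : q + q * (k * (q - 1)) = q * q := by
    rw [← hde, ← pow_two]; omega
  have h4 : 1 + k * (q - 1) = q :=
    Nat.eq_of_mul_eq_mul_left (show 0 < q by omega) (by rw [mul_add, mul_one]; exact h3)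
  have h5 : k = 1 := by
    rcases k with _ | _ | k
    · omega
    · rfl
    · exfalso
      have : 2 * (q - 1) ≤ (k + 1 + 1) * (q - 1) := Nat.mul_le_mul_right _ (by omega)
      omega
  rw [h5, mul_one]

lemma CC.exists_smul_eq (h : CC H p q s) (hn : Nat.card (Sylow p H) = q + 1) {P A B : Sylow p H}
    (hA : A ≠ P) (hB : B ≠ P) : ∃ u : (P : Subgroup H), (u : H) • A = B := by
  classical
  haveI := Fintype.ofFinite (Sylow p H)
  have hmem : ∀ u : (P : Subgroup H), (u : H) • A ≠ P := fun u e => hA (by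
    have e' : (u : H)⁻¹ • P = P := Sylow.smul_eq_iff_mem_normalizer.2
      (Subgroup.le_normalizer (inv_mem u.2))
    rwa [← smul_left_cancel_iff (u : H)⁻¹, inv_smul_smul, e'] at e)
  have hinj : Function.Injective fun u : (P : Subgroup H) =>
      (⟨(u : H) • A, hmem u⟩ : {S : Sylow p H // S ≠ P}) := by
    intro u v e
    have e' : ((v : H)⁻¹ * u) • A = A := by
      have e2 : (u : H) • A = (v : H) • A := congrArg Subtype.val e
      rw [mul_smul, e2, inv_smul_smul]
    by_contra hne
    refine hA (h.eq_of_smul (P := P) (mul_mem (inv_mem v.2) u.2) (fun e1 => hne ?_) e')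
    exact Subtype.ext (inv_mul_eq_one.1 e1).symm
  have hbij := (Nat.bijective_iff_injective_and_card _).2 ⟨hinj, by
    rw [Nat.card_eq_fintype_card (α := {S : Sylow p H // S ≠ P}), Fintype.card_subtype_compl,
      Fintype.card_subtype_eq, ← Nat.card_eq_fintype_card, hn, h.sylow_card]
    omega⟩
  obtain ⟨u, hu⟩ := hbij.2 ⟨B, hB⟩
  exact ⟨u, congrArg Subtype.val hu⟩

/-- Recognition of `PSL₂(q)`. -/
theorem CC.iso_psl (h : CC H p q s) {d : ℕ} (hs : d * s = q ^ 2 - 1)
    (hcase : (2 ∣ q ∧ d = 1 ∧ 4 ≤ q) ∨ (¬ 2 ∣ q ∧ d = 2 ∧ 5 ≤ q ∧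
      ∀ N : Subgroup H, N.Normal → Nat.card N ≠ q + 1))
    (F : Type*) [Field F] [Fintype F] (hF : Fintype.card F = q) :
    Nonempty (H ≃* Matrix.ProjectiveSpecialLinearGroup (Fin 2) F) := by
  classical
  haveI := Fintype.ofFinite (Sylow p H)
  obtain ⟨P⟩ : Nonempty (Sylow p H) := inferInstance
  have hd : 0 < d ∧ d ≤ 2 := by rcases hcase with ⟨-, h', -⟩ | ⟨-, h', -⟩ <;> omega
  obtain ⟨hn, hde⟩ := h.numbers P hd.1 hd.2 hs
  have hcard : Fintype.card (Sylow p H) = q + 1 := by rw [← Nat.card_eq_fintype_card, hn]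
  haveI : Nontrivial (Sylow p H) := Finite.one_lt_card_iff_nontrivial.1 (by
    have := h.one_lt; omega)
  obtain ⟨B, hB⟩ := exists_ne P
  have hthree : ∀ g : H, ∀ a b c : Sylow p H, a ≠ b → b ≠ c → a ≠ c →
      g • a = a → g • b = b → g • c = c → g = 1 := by
    intro g a b c hab hbc hac hga hgb hgc
    obtain ⟨u, hu⟩ := h.exists_smul_eq hn (P := a) hab.symm hac.symm
    have hu1 : (u : H) ≠ 1 := fun e => hbc (by rw [← hu, e, one_smul])
    have hconj : g * u * g⁻¹ ∈ (a : Subgroup H) :=
      (Subgroup.mem_normalizer_iff.1 (Sylow.smul_eq_iff_mem_normalizer.1 hga) u.1).1 u.2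
    have hinv : g⁻¹ • b = b := by rw [inv_smul_eq_iff]; exact hgb.symm
    have hfix : ((u : H)⁻¹ * (g * u * g⁻¹)) • b = b := by
      rw [mul_smul, mul_smul, mul_smul, hinv, hu, hgc, ← hu, inv_smul_smul]
    have hc : (u : H)⁻¹ * (g * u * g⁻¹) = 1 := by
      by_contra hne
      exact hab (h.eq_of_smul (P := a) (mul_mem (inv_mem u.2) hconj) hne hfix).symm
    have hg : g ∈ (a : Subgroup H) := h.mem_of_commute u.2 hu1 (by
      have := inv_mul_eq_one.1 hc
      exact (mul_inv_eq_iff_eq_mul.1 this.symm))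
    by_contra hg1
    exact hab (h.eq_of_smul hg hg1 hgb).symm
  haveI hfaith : FaithfulSMul H (Sylow p H) := by
    refine ⟨fun {x y} e => inv_mul_eq_one.1 ?_ |>.symm⟩
    obtain ⟨c, hc⟩ : ∃ c : Sylow p H, c ∉ ({P, B} : Finset (Sylow p H)) := by
      by_contra hall
      push Not at hall
      have := Finset.card_le_card (fun z _ => hall z : (Finset.univ : Finset (Sylow p H)) ⊆ {P, B})
      have h2 := Finset.card_le_two (a := P) (b := B)
      rw [Finset.card_univ, hcard] at this
      have := h.one_lt; omega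
    simp only [Finset.mem_insert, Finset.mem_singleton, not_or] at hc
    have hx : ∀ z : Sylow p H, (y⁻¹ * x) • z = z := fun z => by rw [mul_smul, e z, inv_smul_smul]
    exact hthree _ P B c hB.symm (Ne.symm hc.2) (Ne.symm hc.1) (hx _) (hx _) (hx _)
  have htwo : ∀ {a b c e : Sylow p H}, a ≠ b → c ≠ e → ∃ g : H, g • a = c ∧ g • b = e := by
    intro a b c e hab hce
    obtain ⟨g, hg⟩ := MulAction.exists_smul_eq H a c
    obtain ⟨u, hu⟩ := h.exists_smul_eq hn (P := c) (A := g • b) (B := e)
      (fun e' => hab (smul_left_cancel g (hg.trans e'.symm))) hce.symm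
    refine ⟨u * g, ?_, by rw [mul_smul, hu]⟩
    rw [mul_smul, hg]
    exact Sylow.smul_eq_iff_mem_normalizer.2 (Subgroup.le_normalizer u.2)
  -- the two-point stabiliser
  set K := stabilizer H P ⊓ stabilizer H B with hK
  have hKcard : d * Nat.card K = q - 1 := by
    have h1 : Nat.card (stabilizer H P) = q * (P : Subgroup H).relIndex
        (Subgroup.normalizer ((P : Subgroup H) : Set H)) := by
      rw [Sylow.stabilizer_eq_normalizer, ← h.sylow_card P]
      rw [← Subgroup.relIndex_bot_left, ← Subgroup.relIndex_bot_left,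
        Subgroup.relIndex_mul_relIndex _ _ _ bot_le Subgroup.le_normalizer]
      rfl
    let f : stabilizer H P → {S : Sylow p H // S ≠ P} := fun g =>
      ⟨g.1 • B, fun e => hB (smul_left_cancel g.1 (e.trans g.2.symm))⟩
    have horb : (MulAction.orbit (stabilizer H P) B).ncard = q := by
      rw [show MulAction.orbit (stabilizer H P) B = ({P} : Set (Sylow p H))ᶜ from ?_]
      · rw [Set.ncard_compl, Set.ncard_singleton, hn]; omega
      · ext S
        constructor
        · rintro ⟨g, rfl⟩
          exact (f g).2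
        · intro hS
          obtain ⟨u, hu⟩ := h.exists_smul_eq hn (P := P) hB hS
          exact ⟨⟨u, Sylow.smul_eq_iff_mem_normalizer.2 (Subgroup.le_normalizer u.2)⟩, hu⟩
    have hos := (stabilizer (stabilizer H P) B).card_mul_index
    rw [MulAction.index_stabilizer, horb, h1] at hos
    have hKe : Nat.card (stabilizer (stabilizer H P) B) = Nat.card K := Nat.card_congr
      { toFun := fun g => ⟨g.1.1, g.1.2, g.2⟩
        invFun := fun g => ⟨⟨g.1, g.2.1⟩, g.2.2⟩
        left_inv := fun g => rfl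
        right_inv := fun g => rfl }
    rw [hKe, mul_comm] at hos
    rw [Nat.eq_of_mul_eq_mul_left (by have := h.one_lt; omega) hos, hde]
  have hKne : ∃ g : H, g ≠ 1 ∧ ∃ a b : Sylow p H, a ≠ b ∧ g • a = a ∧ g • b = b := by
    haveI : Nontrivial K := Finite.one_lt_card_iff_nontrivial.1 (by
      rcases hcase with ⟨-, rfl, h4⟩ | ⟨-, rfl, h5, -⟩ <;> omega)
    obtain ⟨⟨g, hg⟩, hg1⟩ := exists_ne (1 : K)
    exact ⟨g, fun e => hg1 (Subtype.ext e), P, B, hB.symm, hg.1, hg.2⟩
  have hZ : H7.ZHyp H (Sylow p H) := ⟨hfaith, htwo, hthree, hKne⟩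
  rcases hcase with ⟨hq2, rfl, -⟩ | ⟨hq2, rfl, -, hreg⟩
  · obtain ⟨F', _, _, -, hF', ⟨e⟩⟩ := hZ.psl_of_odd_full hB.symm
      (by rw [hcard, Nat.odd_iff]; omega) (by rw [hcard]; rw [← hK]; have := h.one_lt; omega)
    exact ⟨e.trans (H6.pslEquiv (FiniteField.ringEquivOfCardEq (by omega)))⟩
  · have hZ' : Cfsg.IsZassenhausGroup H (Sylow p H) := by
      refine ⟨hfaith, is_two_pretransitive_iff.2 fun hab hce => htwo hab hce, hthree, hKne,
        fun N hN htr => ?_⟩
      by_contra hall
      push Not at hall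
      refine hreg N hN ?_
      have := (stabilizer N P).card_mul_index
      rw [MulAction.index_stabilizer, hall P, Subgroup.card_bot, one_mul,
        MulAction.orbit_eq_univ, Set.ncard_univ] at this
      rw [← this, hn]
    have hK' : H7.ZK H P B (P : Subgroup H) :=
      ⟨hZ, hB.symm, fun u hu => Sylow.smul_eq_iff_mem_normalizer.2 (Subgroup.le_normalizer hu),
        fun g hg u hu =>
          (Subgroup.mem_normalizer_iff.1 (Sylow.smul_eq_iff_mem_normalizer.1 hg) u).1 hu,
        fun y y' hy hy' => by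
          obtain ⟨u, hu⟩ := h.exists_smul_eq hn hy hy'
          refine ⟨u, hu, fun v hv => ?_⟩
          by_contra hne
          refine hy (h.eq_of_smul (P := P) (x := (u : H)⁻¹ * v) (mul_mem (inv_mem u.2) v.2)
            (fun e => hne (Subtype.ext (inv_mul_eq_one.1 e).symm)) ?_)
          rw [mul_smul, hv, ← hu, inv_smul_smul]⟩
    rcases H7.abelian_kernel_classify hZ' hK' (fun u hu v hv => (h.sylow_comm P u hu v hv).eq) with
      ⟨h3, hst⟩ | ⟨F', _, _, -, hF', ⟨e⟩⟩
    · exfalso
      have hcard3 : Fintype.card (Fin 3 ↪ Sylow p H) = (q + 1) * q * (q - 1) := by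
        simp [Fintype.card_embedding_eq, hcard, Nat.descFactorial_succ, mul_comm, mul_assoc,
          mul_left_comm]
      obtain ⟨t⟩ : Nonempty (Fin 3 ↪ Sylow p H) := Fintype.card_pos_iff.1 (by
        rw [hcard3]; have := h.one_lt
        exact Nat.mul_pos (Nat.mul_pos (by omega) (by omega)) (by omega))
      haveI : IsPretransitive H (Fin 3 ↪ Sylow p H) := h3
      have h1 := (stabilizer H t).card_mul_index
      rw [MulAction.index_stabilizer, hst t, Subgroup.card_bot, one_mul, MulAction.orbit_eq_univ,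
        Set.ncard_univ, Nat.card_eq_fintype_card, hcard3, h.card] at h1
      have hsq : q ^ 2 - 1 = (q + 1) * (q - 1) := by simpa using Nat.sq_sub_sq q 1
      rw [hsq] at hs
      have : q * s = q * (2 * s) := by rw [hs, ← h1]; ring
      have h' := Nat.eq_of_mul_eq_mul_left (by have := h.one_lt; omega) this
      have hspos : 0 < s := Nat.pos_of_ne_zero fun e => h.cop (e ▸ dvd_zero p)
      omega
    · exact ⟨e.trans (H6.pslEquiv (FiniteField.ringEquivOfCardEq (by omega)))⟩

end Cfsg.Agent.H44.ClassSizes
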