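import Cfsg.Agent.H44.ClassSizes.Pick
import Cfsg.Agent.H44.ClassSizes.Zass

/-!
# From class sizes to the central quotient
-/

set_option autoImplicit false

namespace Cfsg.Agent.H44.ClassSizes

open scoped Pointwise

variable {G : Type*} [Group G] [Finite G] {p q s : ℕ}

/-- the image of a centraliser in the central quotient -/
abbrev cbar (x : G) : Subgroup (G ⧸ Subgroup.center G) :=
  (Subgroup.centralizer ({x} : Set G)).map (QuotientGroup.mk' (Subgroup.center G))

omit [Finite G] in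
lemma card_cbar (x : G) : Nat.card (cbar x) = quo x := by
  rw [cbar, ← Subgroup.relIndex_ker, QuotientGroup.ker_mk']

omit [Finite G] in
lemma self_mem_cbar (x : G) : (x : G ⧸ Subgroup.center G) ∈ cbar x :=
  ⟨x, Subgroup.mem_centralizer_singleton_iff.2 rfl, rfl⟩

omit [Finite G] in
lemma mem_of_mk_mem_cbar {x g : G} (h : (g : G ⧸ Subgroup.center G) ∈ cbar x) :
    Commute g x := by
  obtain ⟨a, ha, hga⟩ := h
  have hz : a⁻¹ * g ∈ Subgroup.center G := QuotientGroup.eq.1 hga
  have h1 : Commute a x := Subgroup.mem_centralizer_singleton_iff.1 ha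
  have h2 : Commute (a⁻¹ * g) x := (Subgroup.mem_center_iff.1 hz x).symm
  simpa using h1.mul_left h2

/-- a `p`-element lift -/
lemma exists_lift [Fact p.Prime] {y : G ⧸ Subgroup.center G} {k : ℕ} (hy : orderOf y = p ^ k) :
    ∃ g : G, (g : G ⧸ Subgroup.center G) = y ∧ ∃ j : ℕ, orderOf g = p ^ j := by
  have hp := (Fact.out : p.Prime)
  obtain ⟨g0, rfl⟩ := QuotientGroup.mk_surjective y
  obtain ⟨a, m, hm, hg0⟩ := Nat.exists_eq_pow_mul_and_not_dvd (orderOf_pos g0).ne' p hp.ne_one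
  obtain ⟨j, hj⟩ := exists_pow_eq_self_of_coprime (x := (g0 : G ⧸ Subgroup.center G)) (n := m)
    (hy ▸ ((hp.coprime_iff_not_dvd.2 hm).symm.pow_right k))
  refine ⟨(g0 ^ m) ^ j, by rw [QuotientGroup.mk_pow, QuotientGroup.mk_pow, hj], ?_⟩
  have hd : orderOf ((g0 ^ m) ^ j) ∣ p ^ a := orderOf_dvd_of_pow_eq_one (by
    rw [← pow_mul, ← pow_mul, show m * (j * p ^ a) = orderOf g0 * j by rw [hg0]; ring, pow_mul,
      pow_orderOf_eq_one, one_pow])
  obtain ⟨i, -, hi⟩ := (Nat.dvd_prime_pow hp).1 hd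
  exact ⟨i, hi⟩

/-- The central quotient is a `CC` group. -/
theorem central_cc [Fact p.Prime] (hf : ∃ f : ℕ, 0 < f ∧ q = p ^ f)
    (hm : (Subgroup.center G).index = q * s) (hps : ¬ p ∣ s)
    (hval : ∀ y : G, idx y ≠ 1 → idx y = s ∨ q ∣ idx y) :
    CC (G ⧸ Subgroup.center G) p q s ∧
      ∀ y : G, y ∉ Subgroup.center G → (∃ k : ℕ, orderOf y = p ^ k) → quo y = q := by
  have hp := (Fact.out : p.Prime)
  obtain ⟨f, hf, rfl⟩ := hf
  have hs0 : s ≠ 0 := fun e => hps (e ▸ dvd_zero p)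
  have hquo : ∀ y : G, y ∉ Subgroup.center G → (∃ k : ℕ, orderOf y = p ^ k) → quo y = p ^ f := by
    intro y hy hy'
    have hne : idx y ≠ 1 := fun e => hy (idx_eq_one_iff.1 e)
    have hmul := quo_mul_idx y
    rw [hm] at hmul
    rcases hval y hne with h | ⟨v, hv⟩
    · rw [h] at hmul
      exact Nat.eq_of_mul_eq_mul_right (Nat.pos_of_ne_zero hs0) hmul
    · exfalso
      rw [hv, ← mul_assoc, mul_comm (quo y), mul_assoc] at hmul
      have hqv := Nat.eq_of_mul_eq_mul_left (pow_pos hp.pos f) hmul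
      apply hps
      refine Dvd.dvd.trans ?_ (Dvd.intro v hqv)
      obtain ⟨k, hk⟩ := hy'
      have hd : orderOf (y : G ⧸ Subgroup.center G) ∣ p ^ k :=
        hk ▸ orderOf_map_dvd (QuotientGroup.mk' (Subgroup.center G)) y
      obtain ⟨i, -, hi⟩ := (Nat.dvd_prime_pow hp).1 hd
      have hi0 : i ≠ 0 := by
        rintro rfl
        rw [pow_zero, orderOf_eq_one_iff, QuotientGroup.eq_one_iff] at hi
        exact hy hi
      rw [← card_cbar]
      refine (dvd_pow_self p hi0).trans (hi ▸ ?_)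
      rw [← Subgroup.orderOf_mk _ (self_mem_cbar y)]
      exact orderOf_dvd_natCard _
  refine ⟨⟨hp, ⟨f, hf, rfl⟩, hm, hps, fun y hy1 hy' => ?_⟩, hquo⟩
  obtain ⟨k, hk⟩ := hy'
  obtain ⟨g, rfl, j, hj⟩ := exists_lift hk
  have hgZ : g ∉ Subgroup.center G := fun h => hy1 ((QuotientGroup.eq_one_iff g).2 h)
  set K := Subgroup.centralizer ({(g : G ⧸ Subgroup.center G)} : Set (G ⧸ Subgroup.center G))
  have hle : cbar g ≤ K := by
    rintro _ ⟨a, ha, rfl⟩
    refine Subgroup.mem_centralizer_singleton_iff.2 ?_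
    exact congrArg (fun z : G => (z : G ⧸ Subgroup.center G))
      (Subgroup.mem_centralizer_singleton_iff.1 ha)
  have hcb : Nat.card (cbar g) = p ^ f := (card_cbar g).trans (hquo g hgZ ⟨j, hj⟩)
  have hpri : ∀ r : ℕ, r.Prime → r ∣ Nat.card K → r = p := by
    intro r hr hrd
    by_contra hne
    haveI := Fact.mk hr
    obtain ⟨⟨c, hcK⟩, hc⟩ := exists_prime_orderOf_dvd_card' (G := K) r hrd
    rw [Subgroup.orderOf_mk] at hc
    obtain ⟨a, rfl, i, hi⟩ := exists_lift (p := r) (k := 1) (by rw [pow_one]; exact hc)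
    have hcomm : a * g * a⁻¹ * g⁻¹ ∈ Subgroup.center G := by
      rw [← QuotientGroup.eq_one_iff]
      have h' := Subgroup.mem_centralizer_singleton_iff.1 hcK
      simp only [QuotientGroup.mk_mul, QuotientGroup.mk_inv]
      rw [h', mul_inv_cancel_right, mul_inv_cancel]
    set z := a * g * a⁻¹ * g⁻¹ with hz
    have hzc : ∀ b : G, Commute z b := fun b => (Subgroup.mem_center_iff.1 hcomm b).symm
    have h1 : z ^ p ^ j = 1 := by
      have e : z * g = a * g * a⁻¹ := by rw [hz]; group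
      have e2 := congrArg (fun b => b ^ p ^ j) e
      beta_reduce at e2
      rwa [(hzc g).mul_pow, conj_pow, ← hj, pow_orderOf_eq_one, mul_one, mul_one, mul_inv_cancel,
        hj] at e2
    have h2 : z ^ r ^ i = 1 := by
      have e : z⁻¹ * a = g * a * g⁻¹ := by rw [hz]; group
      have e2 := congrArg (fun b => b ^ r ^ i) e
      beta_reduce at e2
      rw [((hzc a).inv_left).mul_pow, conj_pow, ← hi, pow_orderOf_eq_one, mul_one, mul_one,
        mul_inv_cancel, hi, inv_pow, inv_eq_one] at e2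
      exact e2
    have hz1 : z = 1 := orderOf_eq_one_iff.1 (Nat.eq_one_of_dvd_coprimes
      (((Nat.coprime_primes hp hr).2 (Ne.symm hne)).pow _ _)
      (orderOf_dvd_of_pow_eq_one h1) (orderOf_dvd_of_pow_eq_one h2))
    have hmem : (a : G ⧸ Subgroup.center G) ∈ cbar g := by
      refine ⟨a, Subgroup.mem_centralizer_singleton_iff.2 ?_, rfl⟩
      have := hz1
      rw [hz, mul_inv_eq_one, mul_inv_eq_iff_eq_mul] at this
      exact this
    have := Subgroup.orderOf_mk _ hmem ▸ orderOf_dvd_natCard (⟨_, hmem⟩ : cbar g)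
    rw [hc, hcb] at this
    exact hne ((Nat.prime_dvd_prime_iff_eq hr hp).1 (hr.dvd_of_dvd_pow this))
  have hK : Nat.card K = p ^ (Nat.card K).primeFactorsList.length :=
    Nat.eq_prime_pow_of_unique_prime_dvd Nat.card_pos.ne' fun {d} hd hdd => hpri d hd hdd
  have hdvd : Nat.card K ∣ p ^ f * s := by
    rw [← hm]; exact Subgroup.card_subgroup_dvd_card K
  rw [hK] at hdvd
  have h3 := ((hp.coprime_iff_not_dvd.2 hps).pow_left _).dvd_of_dvd_mul_right hdvd
  refine le_antisymm (Nat.le_of_dvd (pow_pos hp.pos f) (hK ▸ h3)) (hcb ▸ ?_)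
  exact Nat.le_of_dvd Nat.card_pos (Subgroup.card_dvd_of_le hle)

/-- Sylow `p`-subgroups of `G` are abelian. -/
theorem sylow_comm_of_cc [Fact p.Prime] (h : CC (G ⧸ Subgroup.center G) p q s)
    (hquo : ∀ y : G, y ∉ Subgroup.center G → (∃ k : ℕ, orderOf y = p ^ k) → quo y = q)
    (R : Sylow p G) : ∀ a ∈ (R : Subgroup G), ∀ b ∈ (R : Subgroup G), Commute a b := by
  intro a ha b hb
  by_cases hbZ : b ∈ Subgroup.center G
  · exact Subgroup.mem_center_iff.1 hbZ a
  obtain ⟨P, hP⟩ := IsPGroup.exists_le_sylow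
    (R.2.map (QuotientGroup.mk' (Subgroup.center G)))
  have hb1 : (b : G ⧸ Subgroup.center G) ≠ 1 := fun e => hbZ ((QuotientGroup.eq_one_iff b).1 e)
  have hc := h.sylow_comm P _ (hP ⟨a, ha, rfl⟩) _ (hP ⟨b, hb, rfl⟩)
  have hmem : (a : G ⧸ Subgroup.center G) ∈ cbar b := by
    have heq : cbar b = Subgroup.centralizer {(b : G ⧸ Subgroup.center G)} :=
      Subgroup.eq_of_le_of_card_ge (by
        rintro _ ⟨c, hc', rfl⟩
        exact Subgroup.mem_centralizer_singleton_iff.2
          (congrArg (fun z : G => (z : G ⧸ Subgroup.center G))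
            (Subgroup.mem_centralizer_singleton_iff.1 hc'))) (by
        rw [card_cbar, hquo b hbZ (pow_of_mem_sylow hb),
          h.cent _ hb1 (pow_of_mem_sylow (P := P) (hP ⟨b, hb, rfl⟩))])
    rw [heq]
    exact Subgroup.mem_centralizer_singleton_iff.2 hc.eq
  exact mem_of_mk_mem_cbar hmem

end Cfsg.Agent.H44.ClassSizes
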