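import Cfsg.Agent.H44.ClassSizes.Pick
import Mathlib.Tactic.Ring
import Mathlib.RingTheory.Int.Basic

/-!
# The index of the centre from the class sizes of `PSL₂(q)`
-/

set_option autoImplicit false

namespace Cfsg.Agent.H44.ClassSizes

variable {G : Type*} [Group G] [Finite G]

lemma not_isPrimePow_of_two {n a b : ℕ} (ha : a.Prime) (hb : b.Prime) (hab : a ≠ b) (h1 : a ∣ n)
    (h2 : b ∣ n) : ¬ IsPrimePow n := by
  rintro ⟨r, k, hr, -, rfl⟩
  have hr' := Nat.prime_iff.2 hr
  exact hab (((Nat.prime_dvd_prime_iff_eq ha hr').1 (ha.dvd_of_dvd_pow h1)).trans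
    ((Nat.prime_dvd_prime_iff_eq hb hr').1 (hb.dvd_of_dvd_pow h2)).symm)

/-- `q * c` and `S` are incomparable if `S` is prime to `q ≥ 2` and does not divide `c` -/
lemma incomparable {q S c : ℕ} (hq : 2 ≤ q) (hco : Nat.Coprime q S) (hc : ¬ S ∣ c) :
    ¬ q * c ∣ S ∧ ¬ S ∣ q * c :=
  ⟨fun h => by
    have := Nat.eq_one_of_dvd_coprimes hco dvd_rfl ((Dvd.intro c rfl).trans h)
    omega, fun h => hc (hco.symm.dvd_of_dvd_mul_left h)⟩

/-- the class sizes of `PSL₂(q)`, `q = A + B` odd -/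
structure OddSizes (G : Type*) [Group G] (q A B : ℕ) : Prop where
  three_le_A : 3 ≤ A
  three_le_B : 3 ≤ B
  oddA : ¬ 2 ∣ A
  evenB : 2 ∣ B
  sum : q = A + B
  cop : Nat.Coprime A B
  val : ∀ y : G, idx y ≠ 1 →
    idx y = 2 * A * B ∨ idx y = q * A ∨ idx y = q * (2 * A) ∨ idx y = q * (2 * B)
  exS : ∃ y : G, idx y = 2 * A * B
  exA : ∃ y : G, idx y = q * A
  exA2 : ∃ y : G, idx y = q * (2 * A)
  exB2 : ∃ y : G, idx y = q * (2 * B)

lemma OddSizes.facts {q A B : ℕ} (h : OddSizes G q A B) :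
    Nat.Coprime q A ∧ Nat.Coprime q B ∧ Nat.Coprime q 2 ∧ Nat.Coprime q (2 * A * B) := by
  have h1 : Nat.Coprime q A := by
    rw [h.sum, Nat.coprime_self_add_left]; exact h.cop.symm
  have h2 : Nat.Coprime q B := by
    rw [h.sum, Nat.coprime_add_self_left]; exact h.cop
  have h3 : Nat.Coprime q 2 := by
    rw [Nat.coprime_two_right, Nat.odd_iff, h.sum]
    have := h.oddA; have := h.evenB; omega
  exact ⟨h1, h2, h3, Nat.Coprime.mul_right (Nat.Coprime.mul_right h3 h1) h2⟩

lemma OddSizes.not_dvd {q A B : ℕ} (h : OddSizes G q A B) :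
    (¬ 2 * A * B ∣ 2 * A ∧ ¬ 2 * A * B ∣ A) ∧ ¬ 2 * A * B ∣ 2 * B := by
  have hA := h.three_le_A
  have hB := h.three_le_B
  have e : 2 * A * 3 ≤ 2 * A * B := Nat.mul_le_mul_left _ hB
  have e' : 2 * B * 3 ≤ 2 * A * B := by
    rw [show 2 * A * B = 2 * B * A by ring]; exact Nat.mul_le_mul_left _ hA
  refine ⟨⟨fun hd => ?_, fun hd => ?_⟩, fun hd => ?_⟩
  all_goals
    have := Nat.le_of_dvd (by omega) hd
    omega

lemma OddSizes.iso_s {q A B : ℕ} (h : OddSizes G q A B) : Isolated G (2 * A * B) := by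
  obtain ⟨h1, h2, h3, h4⟩ := h.facts
  obtain ⟨⟨n1, n2⟩, n3⟩ := h.not_dvd
  have hA := h.three_le_A
  have hB := h.three_le_B
  have hq : 2 ≤ q := by have := h.sum; omega
  refine ⟨fun e => absurd (Nat.eq_one_of_mul_eq_one_left e) (by omega), fun y hy hd => ?_⟩
  rcases h.val y hy with e | e | e | e
  · exact e
  · rw [e] at hd; exact absurd hd (not_or.2 (incomparable hq h4 n2))
  · rw [e] at hd; exact absurd hd (not_or.2 (incomparable hq h4 n1))
  · rw [e] at hd; exact absurd hd (not_or.2 (incomparable hq h4 n3))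

lemma OddSizes.iso_B {q A B : ℕ} (h : OddSizes G q A B) : Isolated G (q * (2 * B)) := by
  obtain ⟨h1, h2, h3, h4⟩ := h.facts
  obtain ⟨-, n3⟩ := h.not_dvd
  have hA := h.three_le_A
  have hB := h.three_le_B
  have hq : 2 ≤ q := by have := h.sum; omega
  have hA2 : Nat.Coprime A (2 * B) :=
    Nat.Coprime.mul_right (Nat.coprime_two_right.2 (Nat.odd_iff.2 (by have := h.oddA; omega))) h.cop
  have c1 : ¬ A ∣ 2 * B := fun hc => by
    have := Nat.eq_one_of_dvd_coprimes hA2 dvd_rfl hc; omega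
  have c2 : ¬ B ∣ A := fun hc => by
    have := Nat.eq_one_of_dvd_coprimes h.cop hc dvd_rfl; omega
  refine ⟨fun e => absurd (Nat.eq_one_of_mul_eq_one_right e) (by omega), fun y hy hd => ?_⟩
  rcases h.val y hy with e | e | e | e
  · rw [e] at hd
    exact absurd hd (not_or.2 ⟨(incomparable hq h4 n3).2, (incomparable hq h4 n3).1⟩)
  · rw [e, Nat.mul_dvd_mul_iff_left (show 0 < q by omega),
      Nat.mul_dvd_mul_iff_left (show 0 < q by omega)] at hd
    exact absurd hd (not_or.2 ⟨c1, fun hc => c2 ((Dvd.intro_left 2 rfl).trans hc)⟩)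
  · rw [e, Nat.mul_dvd_mul_iff_left (show 0 < q by omega),
      Nat.mul_dvd_mul_iff_left (show 0 < q by omega)] at hd
    exact absurd hd (not_or.2 ⟨fun hc => c1 ((Dvd.intro_left 2 rfl).trans hc),
      fun hc => c2 ((Nat.mul_dvd_mul_iff_left (by omega)).1 hc)⟩)
  · exact e

/-- The index of the centre, odd `q`. -/
theorem OddSizes.index_center {q A B : ℕ} (h : OddSizes G q A B) {p : ℕ} (hp : p.Prime) {f : ℕ}
    (hqp : q = p ^ f) : (Subgroup.center G).index = q * (2 * A * B) := by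
  obtain ⟨h1, h2, h3, h4⟩ := h.facts
  obtain ⟨⟨n1, n2⟩, n3⟩ := h.not_dvd
  have hA := h.three_le_A
  have hB := h.three_le_B
  have hq : 2 ≤ q := by have := h.sum; omega
  have hf : f ≠ 0 := by rintro rfl; rw [pow_zero] at hqp; omega
  obtain ⟨xs, hxs⟩ := h.exS
  obtain ⟨xA, hxA⟩ := h.exA
  obtain ⟨xB, hxB⟩ := h.exB2
  obtain ⟨k, hk⟩ : q * (2 * A * B) ∣ (Subgroup.center G).index := by
    refine h4.mul_dvd_of_dvd_of_dvd ?_ ?_
    · exact (Dvd.intro A (hxA.symm)).trans (Dvd.intro_left _ (quo_mul_idx xA))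
    · exact hxs ▸ Dvd.intro_left _ (quo_mul_idx xs)
  by_contra hne
  have hk1 : k ≠ 1 := fun e => hne (by rw [hk, e, mul_one])
  obtain ⟨r, hr, hrk⟩ := Nat.exists_prime_and_dvd hk1
  have hAB : 0 < 2 * A * B := by positivity
  by_cases hrp : r = p
  · subst hrp
    have hquo : quo xB = k * A := by
      have := quo_mul_idx xB
      rw [hxB, hk] at this
      refine Nat.eq_of_mul_eq_mul_right (show 0 < q * (2 * B) by positivity) (this.trans ?_)
      ring
    obtain ⟨a, ha, haA⟩ := Nat.exists_prime_and_dvd (show A ≠ 1 by omega)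
    have hra : r ≠ a := fun e => hr.one_lt.ne' (Nat.eq_one_of_dvd_coprimes h1
      (hqp ▸ dvd_pow_self r hf) (e ▸ haA))
    refine false_of_prime hr h.iso_B hxB ?_ ?_ hxs ?_ ?_
    · rw [hquo]
      exact not_isPrimePow_of_two hr ha hra (hrk.mul_right A) (haA.mul_left k)
    · rw [hquo]; exact hrk.mul_right A
    · exact (incomparable hq h4 n3).2
    · intro hd
      exact hr.one_lt.ne' (Nat.eq_one_of_dvd_coprimes h4 (hqp ▸ dvd_pow_self r hf) hd)
  · have hquo : quo xs = k * q := by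
      have := quo_mul_idx xs
      rw [hxs, hk] at this
      refine Nat.eq_of_mul_eq_mul_right hAB (this.trans ?_)
      ring
    have hnp : ¬ IsPrimePow (quo xs) := hquo ▸ not_isPrimePow_of_two hr hp hrp
      (hrk.mul_right q) ((hqp ▸ dvd_pow_self p hf : p ∣ q).mul_left k)
    have hrq : ¬ r ∣ q := fun hd => hrp ((Nat.prime_dvd_prime_iff_eq hr hp).1
      (hr.dvd_of_dvd_pow (hqp ▸ hd)))
    have hrx : r ∣ quo xs := hquo ▸ hrk.mul_right q
    by_cases hrA : r ∣ A
    · refine false_of_prime hr h.iso_s hxs hnp hrx hxB (incomparable hq h4 n3).1 ?_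
      intro hd
      rcases hr.dvd_mul.1 hd with hd | hd
      · exact hrq hd
      rcases hr.dvd_mul.1 hd with hd | hd
      · exact h.oddA (((Nat.prime_dvd_prime_iff_eq hr Nat.prime_two).1 hd) ▸ hrA)
      · exact hr.one_lt.ne' (Nat.eq_one_of_dvd_coprimes h.cop hrA hd)
    · refine false_of_prime hr h.iso_s hxs hnp hrx hxA (incomparable hq h4 n2).1 ?_
      intro hd
      rcases hr.dvd_mul.1 hd with hd | hd
      · exact hrq hd
      · exact hrA hd

/-- the class sizes of `PSL₂(q)`, `q` even; `u = q - 1`, `v = q + 1` -/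
structure EvenSizes (G : Type*) [Group G] (q u v : ℕ) : Prop where
  four_le : 4 ≤ q
  even : 2 ∣ q
  hu : u + 1 = q
  hv : v = q + 1
  val : ∀ y : G, idx y ≠ 1 → idx y = u * v ∨ idx y = q * u ∨ idx y = q * v
  exS : ∃ y : G, idx y = u * v
  exU : ∃ y : G, idx y = q * u
  exV : ∃ y : G, idx y = q * v

/-- The index of the centre, even `q`. -/
theorem EvenSizes.index_center {q u v : ℕ} (h : EvenSizes G q u v) {f : ℕ} (hqp : q = 2 ^ f) :
    (Subgroup.center G).index = q * (u * v) := by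
  have hq4 := h.four_le
  have heven := h.even
  have hu := h.hu
  have hv := h.hv
  have huv : Nat.Coprime u v := by
    rw [show v = u + 2 by omega, Nat.coprime_self_add_right, Nat.coprime_two_right, Nat.odd_iff]
    omega
  have hqu : Nat.Coprime q u := by rw [← hu, Nat.coprime_self_add_left]; exact Nat.coprime_one_left u
  have hqv : Nat.Coprime q v := by rw [hv, Nat.coprime_self_add_right]; exact Nat.coprime_one_right q
  have hqs : Nat.Coprime q (u * v) := hqu.mul_right hqv
  have hq : 2 ≤ q := by omega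
  have e1 : ¬ u * v ∣ u := fun hd => by
    have h1 : u * 2 ≤ u * v := Nat.mul_le_mul_left _ (by omega)
    have := Nat.le_of_dvd (by omega) hd; omega
  have e2 : ¬ u * v ∣ v := fun hd => by
    have h1 : 2 * v ≤ u * v := Nat.mul_le_mul_right _ (by omega)
    have := Nat.le_of_dvd (by omega) hd; omega
  have e3 : ¬ u ∣ v := fun hd => by
    have := Nat.eq_one_of_dvd_coprimes huv dvd_rfl hd; omega
  have e4 : ¬ v ∣ u := fun hd => by
    have := Nat.le_of_dvd (by omega) hd; omega
  have isoS : Isolated G (u * v) := by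
    refine ⟨fun e => absurd (Nat.eq_one_of_mul_eq_one_left e) (by omega), fun y hy hd => ?_⟩
    rcases h.val y hy with e | e | e
    · exact e
    · rw [e] at hd; exact absurd hd (not_or.2 (incomparable hq hqs e1))
    · rw [e] at hd; exact absurd hd (not_or.2 (incomparable hq hqs e2))
  have isoU : Isolated G (q * u) := by
    refine ⟨fun e => absurd (Nat.eq_one_of_mul_eq_one_right e) (by omega), fun y hy hd => ?_⟩
    rcases h.val y hy with e | e | e
    · rw [e] at hd
      exact absurd hd (not_or.2 ⟨(incomparable hq hqs e1).2, (incomparable hq hqs e1).1⟩)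
    · exact e
    · rw [e, Nat.mul_dvd_mul_iff_left (show 0 < q by omega),
      Nat.mul_dvd_mul_iff_left (show 0 < q by omega)] at hd
      exact absurd hd (not_or.2 ⟨e4, e3⟩)
  obtain ⟨xs, hxs⟩ := h.exS
  obtain ⟨xu, hxu⟩ := h.exU
  obtain ⟨xv, hxv⟩ := h.exV
  obtain ⟨k, hk⟩ : q * (u * v) ∣ (Subgroup.center G).index := by
    refine hqs.mul_dvd_of_dvd_of_dvd ?_ ?_
    · exact (Dvd.intro u hxu.symm).trans (Dvd.intro_left _ (quo_mul_idx xu))
    · exact hxs ▸ Dvd.intro_left _ (quo_mul_idx xs)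
  by_contra hne
  have hk1 : k ≠ 1 := fun e => hne (by rw [hk, e, mul_one])
  obtain ⟨r, hr, hrk⟩ := Nat.exists_prime_and_dvd hk1
  by_cases hr2 : r = 2
  · subst hr2
    have hquo : quo xu = k * v := by
      have := quo_mul_idx xu
      rw [hxu, hk] at this
      refine Nat.eq_of_mul_eq_mul_right (Nat.mul_pos (by omega) (by omega) : 0 < q * u)
        (this.trans ?_)
      ring
    obtain ⟨a, ha, hav⟩ := Nat.exists_prime_and_dvd (show v ≠ 1 by omega)
    refine false_of_prime hr isoU hxu ?_ (hquo ▸ hrk.mul_right v) hxs (incomparable hq hqs e1).2 ?_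
    · rw [hquo]
      refine not_isPrimePow_of_two hr ha ?_ (hrk.mul_right v) (hav.mul_left k)
      rintro rfl; omega
    · intro hd
      rcases hr.dvd_mul.1 hd with hd | hd <;> omega
  · have hquo : quo xs = k * q := by
      have := quo_mul_idx xs
      rw [hxs, hk] at this
      refine Nat.eq_of_mul_eq_mul_right (Nat.mul_pos (by omega) (by omega) : 0 < u * v)
        (this.trans ?_)
      ring
    have hnp : ¬ IsPrimePow (quo xs) := hquo ▸ not_isPrimePow_of_two hr Nat.prime_two hr2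
      (hrk.mul_right q) (heven.mul_left k)
    have hrq : ¬ r ∣ q := fun hd => hr2 ((Nat.prime_dvd_prime_iff_eq hr Nat.prime_two).1
      (hr.dvd_of_dvd_pow (hqp ▸ hd)))
    have hrx : r ∣ quo xs := hquo ▸ hrk.mul_right q
    by_cases hrv : r ∣ v
    · refine false_of_prime hr isoS hxs hnp hrx hxu (incomparable hq hqs e1).1 ?_
      intro hd
      rcases hr.dvd_mul.1 hd with hd | hd
      · exact hrq hd
      · exact hr.one_lt.ne' (Nat.eq_one_of_dvd_coprimes huv hd hrv)
    · refine false_of_prime hr isoS hxs hnp hrx hxv (incomparable hq hqs e2).1 ?_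
      intro hd
      rcases hr.dvd_mul.1 hd with hd | hd
      · exact hrq hd
      · exact hrv hd

end Cfsg.Agent.H44.ClassSizes
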