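import Cfsg.Agent.H44.ClassSizes.Central
import Cfsg.Agent.H44.ClassSizes.Index
import Cfsg.Agent.H64.StemBasic
import Cfsg.Agent.H64.SL2Sylow
import Cfsg.Agent.H69.PSL2Elements
import Cfsg.Agent.H6.PSL

/-!
# The centre meets the derived subgroup trivially
-/

set_option autoImplicit false

namespace Cfsg.Agent.H44.ClassSizes

open scoped Pointwise commutatorElement

/-- A central `r`-element lies in every Sylow `r`-subgroup. -/
lemma central_mem_sylow {G : Type*} [Group G] [Finite G] {r : ℕ} [Fact r.Prime] (R : Sylow r G) {z : G}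
    (hz : z ∈ Subgroup.center G) (hz' : ∃ k : ℕ, orderOf z = r ^ k) : z ∈ (R : Subgroup G) := by
  obtain ⟨k, hk⟩ := hz'
  haveI : (Subgroup.zpowers z).Normal := ⟨fun a ha g => by
    have : a ∈ Subgroup.center G := Subgroup.zpowers_le.2 hz ha
    rwa [Subgroup.mem_center_iff.1 this g, mul_inv_cancel_right]⟩
  have h := IsPGroup.to_sup_of_normal_left
    (IsPGroup.of_card (n := k) (by rw [Nat.card_zpowers, hk]) : IsPGroup r (Subgroup.zpowers z)) R.2
  have := R.is_maximal' h le_sup_right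
  exact this ▸ (le_sup_left : Subgroup.zpowers z ≤ _) (Subgroup.mem_zpowers z)

/-- odd subgroups of coprime characteristic are cyclic in `PSL₂` -/
lemma psl_isCyclic {F : Type*} [Field F] [Fintype F] (p : ℕ) [Fact p.Prime] [CharP F p] {r : ℕ}
    [Fact r.Prime] (hr2 : r ≠ 2) (hrp : r ≠ p)
    (U : Subgroup (Matrix.ProjectiveSpecialLinearGroup (Fin 2) F)) (hU : IsPGroup r U) :
    IsCyclic U := by
  classical
  set π := (H6.π : Matrix.SpecialLinearGroup (Fin 2) F →* Matrix.ProjectiveSpecialLinearGroup (Fin 2) F)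
  set Q := U.comap π with hQ
  obtain ⟨T⟩ : Nonempty (Sylow r Q) := inferInstance
  set T' : Subgroup (Matrix.SpecialLinearGroup (Fin 2) F) := (T : Subgroup Q).map Q.subtype with hT'
  have hc := H64.SL2.isCyclic_of_isPGroup p hr2 hrp T' (T.2.map _)
  have hle : T'.map π ≤ U := by
    rintro _ ⟨x, ⟨a, -, rfl⟩, rfl⟩
    exact a.2
  have heq : T'.map π = U := by
    refine le_antisymm hle (Subgroup.relIndex_eq_one.1 ?_)
    have h1 : (T'.map π).relIndex U ∣ T'.relIndex Q := by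
      have e : (T'.map π).relIndex U = (T' ⊔ π.ker).relIndex Q := by
        rw [← Subgroup.comap_map_eq, hQ, Subgroup.relIndex_comap,
          Subgroup.map_comap_eq_self_of_surjective H6.π_surjective]
      rw [e]
      exact Subgroup.relIndex_dvd_of_le_left Q le_sup_left
    have h2 : T'.relIndex Q = (T : Subgroup Q).index := by
      rw [hT', Subgroup.relIndex, Subgroup.subgroupOf, Subgroup.comap_map_eq_self_of_injective
        Q.subtype_injective]
    obtain ⟨a, ha⟩ := IsPGroup.iff_card.1 hU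
    obtain ⟨b, -, hb⟩ := (Nat.dvd_prime_pow Fact.out).1
      (ha ▸ Subgroup.relIndex_dvd_card (T'.map π) U)
    rcases b with _ | b
    · rw [hb, pow_zero]
    · exact absurd ((hb ▸ dvd_pow_self r (Nat.succ_ne_zero b)).trans (h2 ▸ h1)) T.not_dvd_index
  rw [← heq]
  exact isCyclic_of_surjective (π.subgroupMap T') (π.subgroupMap_surjective T')

lemma two_mul_eq_zero_cases {n : ℕ} [NeZero n] {i j : ZMod n} (hi : i + i = 0) (hj : j + j = 0)
    (hj0 : j ≠ 0) : i = 0 ∨ i = j := by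
  have key : ∀ k : ZMod n, k + k = 0 → k ≠ 0 → 2 * k.val = n := by
    intro k hk hk0
    have h1 : ((k.val + k.val : ℕ) : ZMod n) = 0 := by
      rw [Nat.cast_add, ZMod.natCast_zmod_val, hk]
    obtain ⟨c, hc⟩ := (ZMod.natCast_eq_zero_iff _ _).1 h1
    have hlt := k.val_lt
    have hpos : 0 < k.val := Nat.pos_of_ne_zero fun e => hk0 ((ZMod.val_eq_zero k).1 e)
    rcases c with _ | _ | c
    · omega
    · omega
    · exfalso
      have : n * 2 ≤ n * (c + 1 + 1) := Nat.mul_le_mul_left _ (by omega)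
      omega
  by_cases hi0 : i = 0
  · exact Or.inl hi0
  · exact Or.inr (ZMod.val_injective n (by have := key i hi hi0; have := key j hj hj0; omega))

/-- In a central extension of a subgroup of a dihedral group with an element central in the extension and
not in the kernel, the kernel meets the derived subgroup trivially. -/
lemma dihedral_case {R : Type*} [Group R] {n : ℕ} [NeZero n] (τ : R →* DihedralGroup n)
    (hker : τ.ker ≤ Subgroup.center R) {x : R} (hx : x ∈ Subgroup.center R) (hx1 : τ x ≠ 1) :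
    τ.ker ⊓ commutator R ≤ ⊥ := by
  classical
  let A : Subgroup R :=
    { carrier := {a | ∃ i : ZMod n, τ a = DihedralGroup.r i}
      one_mem' := ⟨0, by rw [map_one, DihedralGroup.one_def]⟩
      mul_mem' := fun {a b} ⟨i, hi⟩ ⟨j, hj⟩ => ⟨i + j, by rw [map_mul, hi, hj, DihedralGroup.r_mul_r]⟩
      inv_mem' := fun {a} ⟨i, hi⟩ => ⟨-i, by rw [map_inv, hi, DihedralGroup.inv_r]⟩ }
  have hA : ∀ a ∈ A, ∀ b ∈ A, Commute a b := by
    let R0 : Subgroup (DihedralGroup n) := Subgroup.zpowers (DihedralGroup.r 1)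
    let f : A →* R0 := (τ.comp A.subtype).codRestrict R0 fun a => by
      obtain ⟨i, hi⟩ := a.2
      refine ⟨(i.val : ℤ), ?_⟩
      simp [hi, DihedralGroup.r_one_pow]
    have hf : f.ker ≤ Subgroup.center A := fun a ha => Subgroup.mem_center_iff.2 fun b => Subtype.ext
      (Subgroup.mem_center_iff.1 (hker (congrArg Subtype.val (MonoidHom.mem_ker.1 ha))) b.1)
    have hc := f.isMulCommutative_of_isCyclic_of_ker_le_center hf
    intro a ha b hb
    exact congrArg Subtype.val (hc.is_comm.comm (⟨a, ha⟩ : A) ⟨b, hb⟩)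
  have hcases : ∀ a : R, a ∈ A ∨ ∃ j : ZMod n, τ a = DihedralGroup.sr j := by
    intro a
    cases h : τ a with
    | r i => exact Or.inl ⟨i, h⟩
    | sr j => exact Or.inr ⟨j, rfl⟩
  by_cases hall : ∀ a : R, a ∈ A
  · have : commutator R = ⊥ := by
      rw [commutator_def, Subgroup.commutator_eq_bot_iff_le_centralizer]
      exact fun a _ => Subgroup.mem_centralizer_iff.2 fun b _ => (hA b (hall b) a (hall a)).eq
    rw [this, inf_bot_eq]
  push Not at hall
  -- a reflection, equal to `x` if possible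
  obtain ⟨b, hb, hbx⟩ : ∃ b : R, b ∉ A ∧ (x ∈ A ∨ b = x) := by
    by_cases hxA : x ∈ A
    · obtain ⟨b, hb⟩ := hall
      exact ⟨b, hb, Or.inl hxA⟩
    · exact ⟨x, hxA, Or.inr rfl⟩
  obtain ⟨j, hj⟩ := (hcases b).resolve_left hb
  have hnormA : ∀ a ∈ A, b * a * b⁻¹ ∈ A := fun a ⟨i, hi⟩ => ⟨-i, by
    rw [map_mul, map_mul, map_inv, hj, hi, DihedralGroup.inv_sr, DihedralGroup.sr_mul_r,
      DihedralGroup.sr_mul_sr]
    congr 1; ring⟩
  have hsplit : ∀ a : R, a ∈ A ∨ ∃ a' ∈ A, a = a' * b := by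
    intro a
    rcases hcases a with h | ⟨i, hi⟩
    · exact Or.inl h
    · exact Or.inr ⟨a * b⁻¹, ⟨j - i, by
        rw [map_mul, map_inv, hi, hj, DihedralGroup.inv_sr, DihedralGroup.sr_mul_sr]⟩,
        (inv_mul_cancel_right a b).symm⟩
  let θ : A →* R :=
    { toFun := fun a => a.1 * (b * a.1⁻¹ * b⁻¹)
      map_one' := by simp
      map_mul' := fun a c => by
        have h1 : Commute c.1 (b * a.1⁻¹ * b⁻¹) := hA _ c.2 _ (hnormA _ (A.inv_mem a.2))
        have h2 : (a * c : A).1⁻¹ = a.1⁻¹ * c.1⁻¹ := by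
          rw [Subgroup.coe_mul, mul_inv_rev, (hA _ (A.inv_mem c.2) _ (A.inv_mem a.2)).eq]
        rw [h2, Subgroup.coe_mul]
        calc a.1 * c.1 * (b * (a.1⁻¹ * c.1⁻¹) * b⁻¹)
            = a.1 * (c.1 * (b * a.1⁻¹ * b⁻¹)) * (b * c.1⁻¹ * b⁻¹) := by group
          _ = a.1 * ((b * a.1⁻¹ * b⁻¹) * c.1) * (b * c.1⁻¹ * b⁻¹) := by rw [h1.eq]
          _ = a.1 * (b * a.1⁻¹ * b⁻¹) * (c.1 * (b * c.1⁻¹ * b⁻¹)) := by group }
  have hθA : ∀ a : A, θ a ∈ A := fun a => A.mul_mem a.2 (hnormA _ (A.inv_mem a.2))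
  have hmixed : ∀ a ∈ A, ∀ c ∈ A, ⁅a, c * b⁆ ∈ θ.range := fun a ha c hc =>
    ⟨⟨a, ha⟩, by
      show a * (b * a⁻¹ * b⁻¹) = ⁅a, c * b⁆
      have h1 : Commute (a * (b * a⁻¹ * b⁻¹)) c := hA _ (hθA ⟨a, ha⟩) _ hc
      have h2 : Commute a c := hA _ ha _ hc
      rw [commutatorElement_def]
      calc a * (b * a⁻¹ * b⁻¹) = a * (b * a⁻¹ * b⁻¹) * c * c⁻¹ := by group
        _ = c * a * (b * a⁻¹ * b⁻¹) * c⁻¹ := by rw [h1.eq]; group
        _ = a * c * (b * a⁻¹ * b⁻¹) * c⁻¹ := by rw [h2.eq]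
        _ = a * (c * b) * a⁻¹ * (c * b)⁻¹ := by group⟩
  have hcomm : commutator R ≤ θ.range := by
    rw [commutator_def, Subgroup.commutator_le]
    intro u _ v _
    rcases hsplit u with hu | ⟨a, ha, rfl⟩ <;> rcases hsplit v with hv | ⟨c, hc, rfl⟩
    · rw [commutatorElement_eq_one_iff_mul_comm.2 (hA u hu v hv).eq]; exact one_mem _
    · exact hmixed u hu c hc
    · rw [← commutatorElement_inv]; exact inv_mem (hmixed v hv a ha)
    · refine ⟨⟨a, ha⟩ * ⟨c, hc⟩⁻¹, ?_⟩
      show a * c⁻¹ * (b * (a * c⁻¹)⁻¹ * b⁻¹) = ⁅a * b, c * b⁆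
      have h1 : Commute c⁻¹ (b * c * a⁻¹ * b⁻¹) :=
        hA _ (A.inv_mem hc) _ (by simpa [mul_assoc] using hnormA _ (A.mul_mem hc (A.inv_mem ha)))
      rw [commutatorElement_def]
      calc a * c⁻¹ * (b * (a * c⁻¹)⁻¹ * b⁻¹) = a * (c⁻¹ * (b * c * a⁻¹ * b⁻¹)) := by group
        _ = a * ((b * c * a⁻¹ * b⁻¹) * c⁻¹) := by rw [h1.eq]
        _ = a * b * (c * b) * (a * b)⁻¹ * (c * b)⁻¹ := by group
  rintro _ ⟨hk, hmem⟩
  obtain ⟨⟨a, i, hi⟩, rfl⟩ := hcomm hmem
  have hk1 : τ (a * (b * a⁻¹ * b⁻¹)) = 1 := hk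
  rw [map_mul, map_mul, map_mul, map_inv, map_inv, hi, hj, DihedralGroup.inv_r, DihedralGroup.inv_sr,
    DihedralGroup.sr_mul_r, DihedralGroup.sr_mul_sr, DihedralGroup.r_mul_r, DihedralGroup.one_def,
    DihedralGroup.r.injEq] at hk1
  have hii : i + i = 0 := by rw [← hk1]; ring
  refine Subgroup.mem_bot.2 ?_
  show a * (b * a⁻¹ * b⁻¹) = 1
  have hcm : Commute a b := by
    rcases hbx with ⟨k, hk'⟩ | hbx'
    · have hk0 : k ≠ 0 := fun e => hx1 (by rw [hk', e, DihedralGroup.one_def])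
      have hkk : k + k = 0 := by
        have e := congrArg τ (Subgroup.mem_center_iff.1 hx b)
        rw [map_mul, map_mul, hk', hj, DihedralGroup.sr_mul_r, DihedralGroup.r_mul_sr,
          DihedralGroup.sr.injEq] at e
        have : (j + k) - (j - k) = 0 := sub_eq_zero.2 e
        rw [← this]; ring
      rcases two_mul_eq_zero_cases hii hkk hk0 with e | e
      · exact (Subgroup.mem_center_iff.1 (hker (MonoidHom.mem_ker.2
          (by rw [hi, e, DihedralGroup.one_def]))) b).symm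
      · have hz : a * x⁻¹ ∈ Subgroup.center R := hker (MonoidHom.mem_ker.2 (by
          rw [map_mul, map_inv, hi, hk', e, DihedralGroup.inv_r, DihedralGroup.r_mul_r,
            add_neg_cancel, DihedralGroup.one_def]))
        have := mul_mem hz hx
        rw [inv_mul_cancel_right] at this
        exact (Subgroup.mem_center_iff.1 this b).symm
    · rw [hbx']; exact Subgroup.mem_center_iff.1 hx a
  calc a * (b * a⁻¹ * b⁻¹) = a * b * a⁻¹ * b⁻¹ := by group
    _ = b * a * a⁻¹ * b⁻¹ := by rw [hcm.eq]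
    _ = 1 := by group

end Cfsg.Agent.H44.ClassSizes
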