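import Cfsg.Agent.H44.ClassSizes.NoRegular
import Cfsg.Agent.H44.ClassSizes.Transfer
import Cfsg.Agent.H1.PSLSimple
import Cfsg.Agent.S2507
import Cfsg.Agent.S2508

/-!
# Groups with the class sizes of `PSL₂(q)`
-/

set_option autoImplicit false

namespace Cfsg.Agent.H44.ClassSizes

open scoped Pointwise MatrixGroups

variable {G : Type*} [Group G] [Finite G] {F : Type*} [Field F] [Fintype F]

local notation "PSL₂" => Matrix.ProjectiveSpecialLinearGroup (Fin 2) F

/-- the Sylow 2-subgroup, odd `q` -/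
lemma two_case {q A B : ℕ} (h : OddSizes G q A B) (hdiff : A = B + 1 ∨ B = A + 1)
    (hm : (Subgroup.center G).index = q * (2 * A * B)) (hF : Fintype.card F = q)
    (e : G ⧸ Subgroup.center G ≃* PSL₂) {z : G} (hz : z ∈ Subgroup.center G)
    (hzc : z ∈ commutator G) (hz2 : orderOf z = 2) : False := by
  classical
  haveI := Fact.mk Nat.prime_two
  have hA := h.three_le_A
  have hB := h.three_le_B
  have hsum := h.sum
  have hoA := h.oddA
  have heB := h.evenB
  obtain ⟨-, -, h3, -⟩ := h.facts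
  have hchar : ringChar F ≠ 2 := fun hc => by
    have := FiniteField.even_card_iff_char_two.1 hc
    omega
  have h2 : (2 : F) ≠ 0 := Ring.two_ne_zero hchar
  obtain ⟨x, hx⟩ := h.exA
  have hqA : 0 < q * A := Nat.mul_pos (by omega) (by omega)
  have hquo : quo x = 2 * B := by
    have := quo_mul_idx x
    rw [hx, hm] at this
    refine Nat.eq_of_mul_eq_mul_right hqA (this.trans ?_)
    ring
  have hxZ : x ∉ Subgroup.center G := fun hc => by
    rw [← idx_eq_one_iff, hx] at hc
    exact absurd (Nat.eq_one_of_mul_eq_one_left hc) (by omega)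
  set σ : G →* PSL₂ := e.toMonoidHom.comp (QuotientGroup.mk' (Subgroup.center G)) with hσ
  have hσker : σ.ker = Subgroup.center G := by
    ext y; simp [hσ]
  -- the image of `x` is an involution
  obtain ⟨g, hg⟩ := H6.π_surjective (σ x)
  have hcardle : quo x ∣ Nat.card (Subgroup.centralizer ({σ x} : Set PSL₂)) := by
    have hle : (Subgroup.centralizer ({x} : Set G)).map σ ≤ Subgroup.centralizer {σ x} := by
      rintro _ ⟨a, ha, rfl⟩
      refine Subgroup.mem_centralizer_singleton_iff.2 ?_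
      rw [← map_mul, ← map_mul, Subgroup.mem_centralizer_singleton_iff.1 ha]
    have hc := Subgroup.card_dvd_of_le hle
    rwa [← Subgroup.relIndex_ker, hσker] at hc
  have hnsc : ¬ H6.IsScal g := fun hsc => hxZ (by
    rw [← hσker, MonoidHom.mem_ker, ← hg, H6.π_eq_one_iff_isScal.2 hsc])
  have htr : H6.tr g = 0 := by
    by_contra h0
    rw [hquo, ← hg] at hcardle
    have hcomap := H69.psl2_comap_centralizer_eq (g := g) (Or.inr (by rw [Matrix.trace_fin_two]; exact h0))
    have hcard : Nat.card ((Subgroup.centralizer ({(H6.π g : PSL₂)} : Set PSL₂)).comap H6.π) =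
        Nat.card (Subgroup.centralizer ({(H6.π g : PSL₂)} : Set PSL₂)) * 2 := by
      have h' := H6.card_map_π (H := (Subgroup.centralizer ({(H6.π g : PSL₂)} : Set PSL₂)).comap H6.π)
        (H6.ker_π.symm.le.trans (Subgroup.ker_le_comap _ _))
      rw [Subgroup.map_comap_eq_self_of_surjective H6.π_surjective, H6.card_center_sl2 hF] at h'
      rw [show Nat.gcd 2 (q - 1) = 2 from Nat.gcd_eq_left (by omega)] at h'
      exact h'.symm
    rw [hcomap] at hcard
    have hdd : 2 * B * 2 ∣ Nat.card (Subgroup.centralizer ({g} : Set SL(2, F))) := by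
      rw [hcard]; exact Nat.mul_dvd_mul_right hcardle 2
    by_cases ht : (g : Matrix (Fin 2) (Fin 2) F).trace ^ 2 = 4
    · have hc := H69.card_centralizer_unipotent_odd (g := g)
        (fun hsc => hnsc hsc) ht hchar
      rw [hc, Nat.card_eq_fintype_card (α := F), hF, mul_comm (2 * B) 2] at hdd
      have := (Nat.mul_dvd_mul_iff_left (by norm_num : 0 < 2)).1 hdd
      have h' := Nat.eq_one_of_dvd_coprimes h3 ((dvd_mul_right 2 B).trans this) dvd_rfl
      omega
    · rcases H69.card_centralizer_semisimple (g := g) ht with hc | hc <;>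
        rw [hc, hF] at hdd <;> have := Nat.le_of_dvd (by omega) hdd <;> omega
  -- a Sylow subgroup inside the centraliser of `x`
  obtain ⟨R0⟩ : Nonempty (Sylow 2 (Subgroup.centralizer ({x} : Set G))) := inferInstance
  set R' := (R0 : Subgroup (Subgroup.centralizer ({x} : Set G))).map (Subgroup.subtype _) with hR'
  have hR'p : IsPGroup 2 R' := R0.2.map _
  have hR'idx : ¬ 2 ∣ R'.index := by
    rw [hR', Subgroup.index_map_subtype]
    intro hd
    rcases Nat.prime_two.dvd_mul.1 hd with hd | hd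
    · exact R0.not_dvd_index hd
    · have : idx x = (Subgroup.centralizer ({x} : Set G)).index := rfl
      rw [← this, hx] at hd
      rcases Nat.prime_two.dvd_mul.1 hd with hd | hd
      · exact absurd (Nat.eq_one_of_dvd_coprimes h3 hd dvd_rfl) (by omega)
      · exact hoA hd
  let R : Sylow 2 G := hR'p.toSylow hR'idx
  have hRle : (R : Subgroup G) ≤ Subgroup.centralizer ({x} : Set G) := Subgroup.map_subtype_le _
  have hzR : z ∈ (R : Subgroup G) := central_mem_sylow R hz ⟨1, by rw [hz2, pow_one]⟩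
  -- the `2`-part of `x`
  obtain ⟨a, m, hm2, hom⟩ := Nat.exists_eq_pow_mul_and_not_dvd (orderOf_pos x).ne' 2 (by norm_num)
  have hord : orderOf (σ x) = 2 := by rw [← hg]; exact (H6.orderOf_π_eq_two_iff h2).2 htr
  set x2 := x ^ m with hx2
  have hx2o : x2 ^ 2 ^ a = 1 := by rw [hx2, ← pow_mul, mul_comm, ← hom, pow_orderOf_eq_one]
  have hσx2 : σ x2 = σ x := by
    rw [hx2, map_pow]
    obtain ⟨c, hc⟩ : ∃ c, m = 2 * c + 1 := ⟨m / 2, by omega⟩
    have h2' : σ x ^ 2 = 1 := by
      have := pow_orderOf_eq_one (σ x)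
      rwa [hord] at this
    rw [hc, pow_succ, pow_mul, h2', one_pow, one_mul]
  have hx2R : x2 ∈ (R : Subgroup G) := by
    have hcz : IsPGroup 2 (Subgroup.zpowers x2) := by
      obtain ⟨b, -, hb⟩ := (Nat.dvd_prime_pow Nat.prime_two).1 (orderOf_dvd_of_pow_eq_one hx2o)
      exact IsPGroup.of_card (n := b) (by rw [Nat.card_zpowers, hb])
    have hnorm : (R : Subgroup G) ≤ Subgroup.normalizer (Subgroup.zpowers x2 : Set G) := by
      intro r hr
      have hc : ∀ j : ℤ, Commute r (x2 ^ j) := fun j =>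
        ((show Commute r x from Subgroup.mem_centralizer_singleton_iff.1 (hRle hr)).pow_right m).zpow_right j
      refine Subgroup.mem_normalizer_iff.2 fun y => ⟨?_, ?_⟩
      · rintro ⟨j, rfl⟩; exact ⟨j, by rw [(hc j).eq, mul_inv_cancel_right]⟩
      · rintro ⟨j, hj⟩
        refine ⟨j, ?_⟩
        have := congrArg (fun w => r⁻¹ * w * r) hj
        simpa [mul_assoc, ← (hc j).eq] using this
    have hj := IsPGroup.to_sup_of_normal_left' hcz R.2 hnorm
    exact (R.is_maximal' hj le_sup_right) ▸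
      (le_sup_left : Subgroup.zpowers x2 ≤ _) (Subgroup.mem_zpowers x2)
  -- embed the image in a dihedral group
  have hss : H6.tr g ^ 2 ≠ 4 := H6.ss_of_tr_zero h2 htr
  obtain ⟨f⟩ := H6.nonempty_torDih_equiv (g := g) hss
  haveI : NeZero (Nat.card (H6.tor g)) := ⟨Nat.card_pos.ne'⟩
  have hdih : ∀ r : (R : Subgroup G), σ r.1 ∈ H6.torDih g := fun r => by
    refine (H6.mem_centralizer_involution h2 htr).1 ?_
    rw [hg, ← map_mul, ← map_mul, Subgroup.mem_centralizer_singleton_iff.1 (hRle r.2)]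
  let τ : (R : Subgroup G) →* DihedralGroup (Nat.card (H6.tor g)) :=
    f.toMonoidHom.comp ((σ.comp (R : Subgroup G).subtype).codRestrict (H6.torDih g) hdih)
  have hτ : ∀ r, τ r = 1 ↔ r.1 ∈ Subgroup.center G := fun r => by
    rw [← hσker, MonoidHom.mem_ker]
    simp only [τ, MonoidHom.comp_apply, MulEquiv.coe_toMonoidHom, MulEquiv.map_eq_one_iff]
    exact Subtype.ext_iff
  have key := dihedral_case τ (fun r hr => Subgroup.mem_center_iff.2 fun w => Subtype.ext
      (Subgroup.mem_center_iff.1 ((hτ r).1 hr) w.1))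
    (x := ⟨x2, hx2R⟩) (Subgroup.mem_center_iff.2 fun w => Subtype.ext
      ((show Commute w.1 x from Subgroup.mem_centralizer_singleton_iff.1 (hRle w.2)).pow_right m).eq)
    (fun h1 => hxZ (by
      have := (hτ ⟨x2, hx2R⟩).1 h1
      rwa [← hσker, MonoidHom.mem_ker, hσx2, ← MonoidHom.mem_ker, hσker] at this))
  have hzR' := H64.mem_commutator_sylow_of_central R hz hzc hzR
  have hmap : (⟨z, hzR⟩ : (R : Subgroup G)) ∈ commutator (R : Subgroup G) := by
    rw [← Subgroup.map_subtype_commutator] at hzR'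
    obtain ⟨w, hw, hwz⟩ := hzR'
    rwa [show (⟨z, hzR⟩ : (R : Subgroup G)) = w from Subtype.ext hwz.symm]
  have := key ⟨(hτ ⟨z, hzR⟩).2 hz, hmap⟩
  rw [Subgroup.mem_bot] at this
  rw [Subtype.ext_iff] at this
  simp only [OneMemClass.coe_one] at this
  rw [this, orderOf_one] at hz2
  omega

/-- `G' ∩ Z(G) = 1`, given the Sylow subgroups for `p` and `2`. -/
theorem commutator_inf_center {p : ℕ} [Fact p.Prime] [CharP F p]
    (e : G ⧸ Subgroup.center G ≃* PSL₂)
    (hp : ∀ R : Sylow p G, ∀ a ∈ (R : Subgroup G), ∀ b ∈ (R : Subgroup G), Commute a b)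
    (htwo : p ≠ 2 → ∀ z : G, z ∈ Subgroup.center G → z ∈ commutator G → orderOf z = 2 → False) :
    commutator G ⊓ Subgroup.center G = ⊥ := by
  rw [Subgroup.eq_bot_iff_forall]
  intro z0 hz0
  by_contra hne
  obtain ⟨r, hr, hdvd⟩ := Nat.exists_prime_and_dvd (fun h => hne (orderOf_eq_one_iff.1 h))
  haveI := Fact.mk hr
  set z := z0 ^ (orderOf z0 / r) with hzdef
  have hzo : orderOf z = r := by
    rw [hzdef, orderOf_pow_of_dvd (Nat.div_ne_zero_iff_of_dvd hdvd |>.2
      ⟨(orderOf_pos z0).ne', hr.pos.ne'⟩) (Nat.div_dvd_of_dvd hdvd), Nat.div_div_self hdvd (orderOf_pos z0).ne']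
  have hzc : z ∈ commutator G := pow_mem hz0.1 _
  have hzZ : z ∈ Subgroup.center G := pow_mem hz0.2 _
  obtain ⟨R⟩ : Nonempty (Sylow r G) := inferInstance
  have hzR := central_mem_sylow R hzZ ⟨1, by rw [hzo, pow_one]⟩
  have hmem := H64.mem_commutator_sylow_of_central R hzZ hzc hzR
  have hfalse : ⁅(R : Subgroup G), (R : Subgroup G)⁆ = ⊥ → False := fun h => by
    rw [h, Subgroup.mem_bot] at hmem
    rw [hmem, orderOf_one] at hzo
    exact hr.one_lt.ne hzo
  by_cases hrp : r = p
  · subst hrp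
    refine hfalse (Subgroup.commutator_eq_bot_iff_le_centralizer.2 fun a ha => ?_)
    exact Subgroup.mem_centralizer_iff.2 fun b hb => (hp R b hb a ha).eq
  · by_cases hr2 : r = 2
    · subst hr2
      exact htwo (Ne.symm hrp) z hzZ hzc hzo
    · set σ : G →* PSL₂ := e.toMonoidHom.comp (QuotientGroup.mk' (Subgroup.center G))
      have hσker : σ.ker ≤ Subgroup.center G := le_of_eq
        (by ext y; simp [σ])
      haveI := psl_isCyclic p hr2 hrp ((R : Subgroup G).map σ) (R.2.map _)
      exact hfalse (H64.commutator_eq_bot_of_isCyclic_map hσker (R : Subgroup G))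

/-- conclusion from `G' ∩ Z(G) = 1` -/
theorem product_of_iso (e : G ⧸ Subgroup.center G ≃* PSL₂) (hcard : 4 ≤ Fintype.card F)
    (hint : commutator G ⊓ Subgroup.center G = ⊥) :
    ∃ N A : Subgroup G, N.Normal ∧ A ≤ Subgroup.center G ∧ N ⊓ A = ⊥ ∧ N ⊔ A = ⊤ ∧
      Nonempty (N ≃* PSL₂) := by
  obtain ⟨a, ha0, ha2⟩ : ∃ a : F, a ≠ 0 ∧ a ^ 2 ≠ 1 := by
    classical
    by_contra hall
    push Not at hall
    have hsub : (Finset.univ : Finset F) ⊆ {0, 1, -1} := fun b _ => by
      by_cases hb : b = 0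
      · simp [hb]
      · rcases sq_eq_one_iff.1 (hall b hb) with h | h <;> simp [h]
    have := Finset.card_le_card hsub
    have h3 := Finset.card_le_three (a := (0 : F)) (b := 1) (c := -1)
    rw [Finset.card_univ] at this
    omega
  haveI : IsSimpleGroup PSL₂ := H1.isSimpleGroup_PSL (Or.inr ⟨a, ha0, ha2⟩)
  haveI : Nontrivial (G ⧸ Subgroup.center G) := e.toEquiv.nontrivial
  haveI : IsSimpleGroup (G ⧸ Subgroup.center G) := IsSimpleGroup.isSimpleGroup_of_surjective
    e.symm.toMonoidHom e.symm.surjective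
  set π := QuotientGroup.mk' (Subgroup.center G) with hπ
  have hmap : (commutator G).map π = ⊤ := by
    rcases (IsSimpleGroup.eq_bot_or_eq_top_of_normal ((commutator G).map π)
      (Subgroup.Normal.map inferInstance π (QuotientGroup.mk'_surjective _))) with h | h
    · exfalso
      have hle : commutator G ≤ Subgroup.center G := by
        rw [← QuotientGroup.ker_mk' (Subgroup.center G), ← hπ]
        exact (Subgroup.map_eq_bot_iff _).1 h
      have hc : commutator G = ⊥ := by rw [← inf_eq_left.2 hle, hint]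
      have htop : Subgroup.center G = ⊤ := by
        rw [commutator_def, Subgroup.commutator_eq_bot_iff_le_centralizer] at hc
        exact top_le_iff.1 fun x _ => Subgroup.mem_center_iff.2 fun y =>
          (Subgroup.mem_centralizer_iff.1 (hc (Subgroup.mem_top x)) y (Subgroup.mem_top y))
      have hsub : Subsingleton (G ⧸ Subgroup.center G) :=
        ⟨fun a b => QuotientGroup.induction_on a fun x => QuotientGroup.induction_on b fun y =>
          QuotientGroup.eq.2 (htop ▸ Subgroup.mem_top _)⟩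
      exact not_subsingleton _ hsub
    · exact h
  refine ⟨commutator G, Subgroup.center G, inferInstance, le_rfl, hint, ?_, ⟨?_⟩⟩
  · rw [← Subgroup.comap_map_eq_self (H := commutator G ⊔ Subgroup.center G) (f := π)
      (by rw [hπ, QuotientGroup.ker_mk']; exact le_sup_right), Subgroup.map_sup, hmap, top_sup_eq,
      Subgroup.comap_top]
  · refine (MulEquiv.ofBijective (π.comp (commutator G).subtype) ⟨?_, ?_⟩).trans e
    · refine (injective_iff_map_eq_one _).2 fun x hx => Subtype.ext ?_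
      exact (Subgroup.eq_bot_iff_forall _).1 hint x.1 ⟨x.2, (QuotientGroup.eq_one_iff x.1).1 hx⟩
    · intro y
      obtain ⟨x, hx, hxy⟩ := (hmap.symm ▸ Subgroup.mem_top y : y ∈ (commutator G).map π)
      exact ⟨⟨x, hx⟩, hxy⟩

/-- odd `q` -/
theorem odd_main (hodd : ¬ 2 ∣ Fintype.card F) (h7 : 7 ≤ Fintype.card F)
    (h : Set.range (fun g : G => (Subgroup.centralizer ({g} : Set G)).index) =
      Set.range (fun g : PSL₂ => (Subgroup.centralizer ({g} : Set PSL₂)).index)) :
    Nonempty (G ⧸ Subgroup.center G ≃* PSL₂) ∧ commutator G ⊓ Subgroup.center G = ⊥ := by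
  obtain ⟨p, hpc⟩ := CharP.exists F
  obtain ⟨n, hp, hcard⟩ := FiniteField.card F p
  haveI := Fact.mk hp
  set q := Fintype.card F with hq
  obtain ⟨A, B, hdiff, hs, hoA, heB, hvals⟩ : ∃ A B : ℕ, (A = B + 1 ∨ B = A + 1) ∧ q = A + B ∧
      ¬ 2 ∣ A ∧ 2 ∣ B ∧
      Set.range (fun g : PSL₂ => (Subgroup.centralizer ({g} : Set PSL₂)).index) =
        {1, 2 * A * B, q * A, q * (2 * A), q * (2 * B)} := by
    obtain ⟨h1, h3⟩ := Cfsg.Agent.S2508.result (F := F) hodd h7
    rcases (by omega : q % 4 = 1 ∨ q % 4 = 3) with hq4 | hq4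
    · obtain ⟨t, ht⟩ : ∃ t, q = 4 * t + 1 := ⟨q / 4, by omega⟩
      refine ⟨2 * t + 1, 2 * t, Or.inl rfl, by omega, by omega, dvd_mul_right 2 t, ?_⟩
      rw [h1 hq4, ← hq]
      have e1 : (q ^ 2 - 1) / 2 = 2 * (2 * t + 1) * (2 * t) := by
        rw [ht, show (4 * t + 1) ^ 2 = 2 * (2 * (2 * t + 1) * (2 * t)) + 1 by ring, Nat.add_sub_cancel,
          Nat.mul_div_cancel_left _ (by norm_num : 0 < 2)]
      have e2 : q * (q + 1) / 2 = q * (2 * t + 1) := by
        rw [show q * (q + 1) = 2 * (q * (2 * t + 1)) by rw [ht]; ring,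
          Nat.mul_div_cancel_left _ (by norm_num : 0 < 2)]
      rw [e1, e2, show q - 1 = 2 * (2 * t) by omega, show q + 1 = 2 * (2 * t + 1) by omega]
      ext m
      simp only [Set.mem_insert_iff, Set.mem_singleton_iff]
      tauto
    · obtain ⟨t, ht⟩ : ∃ t, q = 4 * t + 3 := ⟨q / 4, by omega⟩
      refine ⟨2 * t + 1, 2 * t + 2, Or.inr rfl, by omega, by omega, Dvd.intro (t + 1) (by ring), ?_⟩
      rw [h3 hq4, ← hq]
      have e1 : (q ^ 2 - 1) / 2 = 2 * (2 * t + 1) * (2 * t + 2) := by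
        rw [ht, show (4 * t + 3) ^ 2 = 2 * (2 * (2 * t + 1) * (2 * t + 2)) + 1 by ring,
          Nat.add_sub_cancel, Nat.mul_div_cancel_left _ (by norm_num : 0 < 2)]
      have e2 : q * (q - 1) / 2 = q * (2 * t + 1) := by
        rw [show q - 1 = 2 * (2 * t + 1) by omega, show q * (2 * (2 * t + 1)) = 2 * (q * (2 * t + 1)) by ring,
          Nat.mul_div_cancel_left _ (by norm_num : 0 < 2)]
      rw [e1, e2, show q - 1 = 2 * (2 * t + 1) by omega, show q + 1 = 2 * (2 * t + 2) by omega]
      ext m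
      simp only [Set.mem_insert_iff, Set.mem_singleton_iff]
      tauto
  rw [hvals] at h
  have hex : ∀ m ∈ ({1, 2 * A * B, q * A, q * (2 * A), q * (2 * B)} : Set ℕ), ∃ y : G, idx y = m :=
    fun m hm => by rw [← h] at hm; exact hm
  have hsz : OddSizes G q A B := by
    refine ⟨by omega, by omega, hoA, heB, hs, ?_, fun y hy => ?_,
      hex _ (by simp), hex _ (by simp), hex _ (by simp), hex _ (by simp)⟩
    · rcases hdiff with rfl | rfl
      · exact Nat.coprime_self_add_left.2 (Nat.coprime_one_left B) |>.symm |>.symm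
      · exact Nat.coprime_self_add_right.2 (Nat.coprime_one_right A)
    · have hmem : idx y ∈ ({1, 2 * A * B, q * A, q * (2 * A), q * (2 * B)} : Set ℕ) := h ▸ ⟨y, rfl⟩
      simp only [Set.mem_insert_iff, Set.mem_singleton_iff] at hmem
      tauto
  have hm := hsz.index_center hp hcard
  obtain ⟨-, -, h3, h4⟩ := hsz.facts
  have hps : ¬ p ∣ 2 * A * B := fun hd => hp.one_lt.ne' (Nat.eq_one_of_dvd_coprimes h4
    (hcard ▸ dvd_pow_self p n.pos.ne') hd)
  obtain ⟨hcc, hquo⟩ := central_cc (p := p) ⟨n, n.pos, hcard⟩ hm hps (fun y hy => by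
    rcases hsz.val y hy with e | e | e | e
    · exact Or.inl e
    all_goals exact Or.inr (e ▸ dvd_mul_right q _))
  have hsq : 2 * (2 * A * B) = q ^ 2 - 1 := by
    rcases hdiff with rfl | rfl <;> rw [hs]
    · rw [show (B + 1 + B) ^ 2 = 2 * (2 * (B + 1) * B) + 1 by ring, Nat.add_sub_cancel]
    · rw [show (A + (A + 1)) ^ 2 = 2 * (2 * A * (A + 1)) + 1 by ring, Nat.add_sub_cancel]
  obtain ⟨e⟩ := hcc.iso_psl (d := 2) hsq (Or.inr ⟨hodd, rfl, by omega, fun N hN =>
    hsz.no_normal hdiff hm hcc N⟩) F rfl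
  exact ⟨⟨e⟩, commutator_inf_center (p := p) e (sylow_comm_of_cc hcc hquo)
    fun _ z hz hzc hz2 => two_case hsz hdiff hm rfl e hz hzc hz2⟩

/-- even `q` -/
theorem even_main (heven : 2 ∣ Fintype.card F) (h2 : 2 < Fintype.card F)
    (h : Set.range (fun g : G => (Subgroup.centralizer ({g} : Set G)).index) =
      Set.range (fun g : PSL₂ => (Subgroup.centralizer ({g} : Set PSL₂)).index)) :
    Nonempty (G ⧸ Subgroup.center G ≃* PSL₂) ∧ commutator G ⊓ Subgroup.center G = ⊥ := by
  obtain ⟨p, hpc⟩ := CharP.exists F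
  obtain ⟨n, hp, hcard⟩ := FiniteField.card F p
  haveI := Fact.mk hp
  have hp2 : p = 2 := ((Nat.prime_dvd_prime_iff_eq Nat.prime_two hp).1
    (Nat.prime_two.dvd_of_dvd_pow (hcard ▸ heven))).symm
  set q := Fintype.card F with hq
  have hq4 : 4 ≤ q := by omega
  rw [Cfsg.Agent.S2507.result (F := F) heven hq4, ← hq] at h
  have e1 : q ^ 2 - 1 = (q - 1) * (q + 1) := by
    rw [mul_comm]; simpa using Nat.sq_sub_sq q 1
  rw [e1] at h
  have hex : ∀ m ∈ ({1, q * (q - 1), (q - 1) * (q + 1), q * (q + 1)} : Set ℕ), ∃ y : G, idx y = m :=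
    fun m hm => by rw [← h] at hm; exact hm
  have hsz : EvenSizes G q (q - 1) (q + 1) := by
    refine ⟨hq4, heven, by omega, rfl, fun y hy => ?_, hex _ (by simp), hex _ (by simp),
      hex _ (by simp)⟩
    have hmem : idx y ∈ ({1, q * (q - 1), (q - 1) * (q + 1), q * (q + 1)} : Set ℕ) := h ▸ ⟨y, rfl⟩
    simp only [Set.mem_insert_iff, Set.mem_singleton_iff] at hmem
    tauto
  have hm := hsz.index_center (by rw [hcard, hp2])
  have hps : ¬ p ∣ (q - 1) * (q + 1) := by
    rw [hp2, Nat.prime_two.dvd_mul]; omega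
  obtain ⟨hcc, hquo⟩ := central_cc (p := p) ⟨n, n.pos, hcard⟩ hm hps (fun y hy => by
    rcases hsz.val y hy with e | e | e
    · exact Or.inl e
    all_goals exact Or.inr (e ▸ dvd_mul_right q _))
  obtain ⟨e⟩ := hcc.iso_psl (d := 1) (by rw [one_mul, e1]) (Or.inl ⟨heven, rfl, hq4⟩) F rfl
  exact ⟨⟨e⟩, commutator_inf_center (p := p) e (sylow_comm_of_cc hcc hquo)
    fun hne => absurd hp2 hne⟩

end Cfsg.Agent.H44.ClassSizes
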