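import Cfsg.Agent.H44.ClassSizes.Central
import Cfsg.Agent.H44.ClassSizes.Index

/-!
# The central quotient has no normal subgroup of order `q + 1`
-/

set_option autoImplicit false

namespace Cfsg.Agent.H44.ClassSizes

variable {G : Type*} [Group G] [Finite G] {p q A B : ℕ}

/-- A normal two-group containing a full Sylow subgroup contains every two-subgroup. -/
lemma le_of_two_group {K : Type*} [Group K] [Finite K] {N T : Subgroup K} [N.Normal]
    (hN : IsPGroup 2 N) (hodd : ¬ 2 ∣ N.index) (hT : IsPGroup 2 T) : T ≤ N := by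
  haveI := Fact.mk Nat.prime_two
  have h := IsPGroup.to_sup_of_normal_left hN hT
  obtain ⟨a, ha⟩ := IsPGroup.iff_card.1 h
  have h1 : N.relIndex (N ⊔ T) ∣ N.index :=
    Dvd.intro _ (Subgroup.relIndex_mul_index (le_sup_left : N ≤ N ⊔ T))
  have h2 : N.relIndex (N ⊔ T) ∣ 2 ^ a := ha ▸ Subgroup.relIndex_dvd_card N (N ⊔ T)
  obtain ⟨b, -, hb⟩ := (Nat.dvd_prime_pow Nat.prime_two).1 h2
  rcases b with _ | b
  · exact le_sup_right.trans (Subgroup.relIndex_eq_one.1 (by rw [hb, pow_zero]))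
  · exact absurd (dvd_trans (hb ▸ dvd_pow_self 2 (Nat.succ_ne_zero b)) h1) hodd

theorem OddSizes.no_normal [Fact p.Prime] (h : OddSizes G q A B) (hdiff : A = B + 1 ∨ B = A + 1)
    (hm : (Subgroup.center G).index = q * (2 * A * B))
    (hcc : CC (G ⧸ Subgroup.center G) p q (2 * A * B))
    (N : Subgroup (G ⧸ Subgroup.center G)) [N.Normal] : Nat.card N ≠ q + 1 := by
  classical
  intro hN
  haveI := Fact.mk Nat.prime_two
  obtain ⟨-, -, h3, -⟩ := h.facts
  have hA := h.three_le_A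
  have hB := h.three_le_B
  have hsum := h.sum
  have hoA := h.oddA
  have heB := h.evenB
  have hq : 2 ∣ q + 1 := by omega
  obtain ⟨f, hf, hqp⟩ := hcc.pow
  have hp := hcc.prime
  obtain ⟨⟨n0, hn0N⟩, hn0⟩ := exists_prime_orderOf_dvd_card' (G := N) 2 (hN ▸ hq)
  rw [Subgroup.orderOf_mk] at hn0
  obtain ⟨P⟩ : Nonempty (Sylow p (G ⧸ Subgroup.center G)) := inferInstance
  have hn01 : n0 ≠ 1 := fun e => by rw [e, orderOf_one] at hn0; omega
  -- the Sylow subgroup permutes the non-identity elements of `N` transitively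
  let conjN : ↥(P : Subgroup (G ⧸ Subgroup.center G)) → {n : N // n ≠ 1} := fun u =>
    ⟨⟨u.1 * n0 * u.1⁻¹, Subgroup.Normal.conj_mem inferInstance n0 hn0N _⟩,
      fun e => hn01 (conj_eq_one_iff.1 (congrArg Subtype.val e))⟩
  have hinj : Function.Injective conjN := by
    intro u v e
    have e' : u.1 * n0 * u.1⁻¹ = v.1 * n0 * v.1⁻¹ := congrArg (fun n => n.1.1) e
    by_contra hne
    have hw1 : v.1⁻¹ * u.1 ≠ 1 := fun e1 => hne (Subtype.ext (inv_mul_eq_one.1 e1).symm)
    have hc : n0 ∈ Subgroup.centralizer ({v.1⁻¹ * u.1} : Set (G ⧸ Subgroup.center G)) := by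
      refine Subgroup.mem_centralizer_singleton_iff.2 ?_
      calc n0 * (v.1⁻¹ * u.1) = v.1⁻¹ * (v.1 * n0 * v.1⁻¹) * u.1 := by group
        _ = v.1⁻¹ * (u.1 * n0 * u.1⁻¹) * u.1 := by rw [e']
        _ = v.1⁻¹ * u.1 * n0 := by group
    have hmem : v.1⁻¹ * u.1 ∈ (P : Subgroup (G ⧸ Subgroup.center G)) := mul_mem (inv_mem v.2) u.2
    have hd := orderOf_dvd_natCard (⟨n0, hc⟩ :
      Subgroup.centralizer ({v.1⁻¹ * u.1} : Set (G ⧸ Subgroup.center G)))
    rw [Subgroup.orderOf_mk, hn0, hcc.cent _ hw1 (pow_of_mem_sylow hmem)] at hd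
    omega
  haveI := Fintype.ofFinite N
  have hbij := (Nat.bijective_iff_injective_and_card conjN).2 ⟨hinj, by
    rw [Nat.card_eq_fintype_card (α := {n : N // n ≠ 1}), Fintype.card_subtype_compl,
      Fintype.card_subtype_eq, ← Nat.card_eq_fintype_card, hN, hcc.sylow_card]
    omega⟩
  have hN2 : IsPGroup 2 N := by
    intro n
    refine ⟨1, ?_⟩
    by_cases hn : n = 1
    · rw [hn, one_pow]
    obtain ⟨u, hu⟩ := hbij.2 ⟨n, hn⟩
    have e : n.1 = u.1 * n0 * u.1⁻¹ := congrArg (fun m => m.1.1) hu.symm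
    refine Subtype.ext ?_
    rw [SubmonoidClass.coe_pow, e, conj_pow, pow_one, ← hn0, pow_orderOf_eq_one, mul_one,
      mul_inv_cancel]
    rfl
  obtain ⟨a, ha⟩ := IsPGroup.iff_card.1 hN2
  -- `q + 1 = 2 B`
  have hBA : B = A + 1 := by
    rcases hdiff with e | e
    swap; · exact e
    exfalso
    have : A ∣ 2 ^ a := ⟨2, by rw [← ha, hN]; omega⟩
    obtain ⟨b, -, hb⟩ := (Nat.dvd_prime_pow Nat.prime_two).1 this
    rcases b with _ | b
    · omega
    · exact hoA (hb ▸ dvd_pow_self 2 (Nat.succ_ne_zero b))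
  have h2B : q + 1 = 2 * B := by omega
  have hidxN : N.index = q * A := by
    have h1 := N.card_mul_index
    rw [hN, hcc.card, h2B] at h1
    refine Nat.eq_of_mul_eq_mul_left (show 0 < 2 * B by omega) (h1.trans ?_)
    ring
  have hodd : ¬ 2 ∣ N.index := by
    rw [hidxN, Nat.prime_two.dvd_mul, not_or]
    exact ⟨fun hd => absurd (Nat.eq_one_of_dvd_coprimes h3 hd dvd_rfl) (by omega), hoA⟩
  set π := QuotientGroup.mk' (Subgroup.center G) with hπ
  -- an element of class size `q A`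
  obtain ⟨x, hx⟩ := h.exA
  have hquo : quo x = 2 * B := by
    have := quo_mul_idx x
    rw [hx, hm] at this
    refine Nat.eq_of_mul_eq_mul_right (show 0 < q * A from Nat.mul_pos (by omega) (by omega))
      (this.trans ?_)
    ring
  have hxN : cbar x ≤ N := le_of_two_group hN2 hodd (IsPGroup.of_card (n := a) (by
    rw [card_cbar, hquo, ← h2B, ← hN, ha]))
  have hxeq : cbar x = N := Subgroup.eq_of_le_of_card_ge hxN (by rw [card_cbar, hquo, hN, h2B])
  have hcen : ∀ g : G, π g ∈ N → Commute g x := fun g hg => mem_of_mk_mem_cbar (hxeq.symm ▸ hg)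
  have hxN' : π x ∈ N := hxN (self_mem_cbar x)
  have hxZ : x ∉ Subgroup.center G := fun hz => by
    rw [← idx_eq_one_iff, hx] at hz
    exact absurd (Nat.eq_one_of_mul_eq_one_left hz) (by omega)
  -- every element of the preimage of `N` is central in it
  have hab : ∀ g k : G, π g ∈ N → π k ∈ N → Commute k g := by
    intro g k hg hk
    by_cases hgZ : g ∈ Subgroup.center G
    · exact Subgroup.mem_center_iff.1 hgZ k
    obtain ⟨v, hv⟩ := hbij.2 ⟨⟨π g, hg⟩, fun e => hgZ ((QuotientGroup.eq_one_iff g).1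
      (congrArg Subtype.val e))⟩
    obtain ⟨u, hu⟩ := hbij.2 ⟨⟨π x, hxN'⟩, fun e => hxZ ((QuotientGroup.eq_one_iff x).1
      (congrArg Subtype.val e))⟩
    have hv' : v.1 * n0 * v.1⁻¹ = π g := congrArg (fun m => m.1.1) hv
    have hu' : u.1 * n0 * u.1⁻¹ = π x := congrArg (fun m => m.1.1) hu
    obtain ⟨w, hw⟩ := QuotientGroup.mk'_surjective (Subgroup.center G) (v.1 * u.1⁻¹)
    have hg' : π (w * x * w⁻¹) = π g := by
      rw [map_mul, map_mul, map_inv, ← hπ] at *
      rw [hw, ← hu', ← hv']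
      group
    have hz : (w * x * w⁻¹)⁻¹ * g ∈ Subgroup.center G := QuotientGroup.eq.1 hg'
    have h1 : Commute (w⁻¹ * k * w) x := hcen _ (by
      rw [map_mul, map_mul, map_inv]
      simpa using Subgroup.Normal.conj_mem inferInstance _ hk (π w)⁻¹)
    have h2 : Commute k (w * x * w⁻¹) := by
      show k * (w * x * w⁻¹) = w * x * w⁻¹ * k
      calc k * (w * x * w⁻¹) = w * (w⁻¹ * k * w * x) * w⁻¹ := by group
        _ = w * (x * (w⁻¹ * k * w)) * w⁻¹ := by rw [h1.eq]
        _ = w * x * w⁻¹ * k := by group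
    have h3' := h2.mul_right (Subgroup.mem_center_iff.1 hz k : Commute k ((w * x * w⁻¹)⁻¹ * g))
    rwa [mul_inv_cancel_left] at h3'
  -- an element of class size `2 q A`
  obtain ⟨y, hy⟩ := h.exA2
  have hyq : quo y = B := by
    have := quo_mul_idx y
    rw [hy, hm] at this
    refine Nat.eq_of_mul_eq_mul_right (show 0 < q * (2 * A) from Nat.mul_pos (by omega) (by omega))
      (this.trans ?_)
    ring
  obtain ⟨b, hb⟩ : ∃ b, B = 2 ^ b := by
    obtain ⟨b, -, hb⟩ := (Nat.dvd_prime_pow Nat.prime_two).1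
      (⟨2, by rw [← ha, hN]; omega⟩ : B ∣ 2 ^ a)
    exact ⟨b, hb⟩
  have hyN : cbar y ≤ N := le_of_two_group hN2 hodd
    (IsPGroup.of_card (n := b) (by rw [card_cbar, hyq, hb]))
  have hNy : N ≤ cbar y := by
    intro n hn
    obtain ⟨g, rfl⟩ := QuotientGroup.mk'_surjective (Subgroup.center G) n
    exact ⟨g, Subgroup.mem_centralizer_singleton_iff.2 (hab y g (hyN (self_mem_cbar y)) hn).eq, rfl⟩
  have := Subgroup.card_dvd_of_le hNy
  rw [card_cbar, hyq, hN] at this
  have := Nat.le_of_dvd (by omega) this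
  omega

end Cfsg.Agent.H44.ClassSizes
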