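import Mathlib.GroupTheory.Sylow
import Mathlib.GroupTheory.OrderOfElement
import Mathlib.GroupTheory.Index
import Mathlib.Algebra.IsPrimePow

/-!
# Centralisers of elements whose class size is isolated under divisibility

If the class size `T` of `x` is comparable under divisibility with no other non-trivial class size then the
centraliser of `x` is abelian or it is a prime power modulo the centre.
-/

set_option autoImplicit false

namespace Cfsg.Agent.H44.ClassSizes

variable {G : Type*} [Group G]

/-- the class size of `x` -/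
noncomputable abbrev idx (x : G) : ℕ := (Subgroup.centralizer ({x} : Set G)).index

/-- the order of the centraliser of `x` modulo the centre -/
noncomputable abbrev quo (x : G) : ℕ :=
  (Subgroup.center G).relIndex (Subgroup.centralizer ({x} : Set G))

/-- `T` is the only non-trivial class size comparable with `T` under divisibility. -/
def Isolated (G : Type*) [Group G] (T : ℕ) : Prop :=
  T ≠ 1 ∧ ∀ y : G, idx y ≠ 1 → (idx y ∣ T ∨ T ∣ idx y) → idx y = T

lemma mem_cent {x g : G} : g ∈ Subgroup.centralizer ({x} : Set G) ↔ g * x = x * g :=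
  Subgroup.mem_centralizer_singleton_iff

lemma idx_eq_one_iff {x : G} : idx x = 1 ↔ x ∈ Subgroup.center G := by
  rw [Subgroup.index_eq_one, Subgroup.centralizer_eq_top_iff_subset, Set.singleton_subset_iff]
  rfl

lemma center_le_cent (x : G) : Subgroup.center G ≤ Subgroup.centralizer ({x} : Set G) :=
  Subgroup.center_le_centralizer _

lemma quo_mul_idx (x : G) : quo x * idx x = (Subgroup.center G).index :=
  Subgroup.relIndex_mul_index (center_le_cent x)

lemma idx_dvd {x y : G} (h : Subgroup.centralizer ({x} : Set G) ≤ Subgroup.centralizer {y}) :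
    idx y ∣ idx x := Subgroup.index_dvd_of_le h

lemma idx_conj (g x : G) : idx (g * x * g⁻¹) = idx x := by
  have e : Subgroup.centralizer ({g * x * g⁻¹} : Set G) =
      (Subgroup.centralizer ({x} : Set G)).map (MulAut.conj g).toMonoidHom := by
    ext y
    rw [Subgroup.mem_map_equiv, mem_cent, mem_cent, MulAut.conj_symm_apply]
    constructor <;> intro h
    · calc g⁻¹ * y * g * x = g⁻¹ * (y * (g * x * g⁻¹)) * g := by group
        _ = g⁻¹ * (g * x * g⁻¹ * y) * g := by rw [h]
        _ = x * (g⁻¹ * y * g) := by group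
    · calc y * (g * x * g⁻¹) = g * (g⁻¹ * y * g * x) * g⁻¹ := by group
        _ = g * (x * (g⁻¹ * y * g)) * g⁻¹ := by rw [h]
        _ = g * x * g⁻¹ * y := by group
  simp only [idx, e]
  exact Subgroup.index_map_of_bijective (MulAut.conj g).bijective _

variable [Finite G]

lemma cent_eq_of_le {x y : G} (h : Subgroup.centralizer ({x} : Set G) ≤ Subgroup.centralizer {y})
    (e : idx x = idx y) : Subgroup.centralizer ({x} : Set G) = Subgroup.centralizer {y} := by
  have h1 := Subgroup.relIndex_mul_index h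
  simp only [idx] at e
  rw [e] at h1
  have h2 : (Subgroup.centralizer ({x} : Set G)).relIndex (Subgroup.centralizer {y}) = 1 := by
    refine Nat.eq_of_mul_eq_mul_right (Nat.pos_of_ne_zero (Subgroup.index_ne_zero_of_finite
      (H := Subgroup.centralizer ({y} : Set G)))) ?_
    rw [one_mul]; exact h1
  exact le_antisymm h (Subgroup.relIndex_eq_one.1 h2)

/-- A prime dividing the index of `K` in `H` is the order base of an element of `H` outside `K`. -/
lemma exists_mem_of_dvd_relIndex {K H : Subgroup G} {r : ℕ} (hr : r.Prime)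
    (h : r ∣ K.relIndex H) : ∃ y ∈ H, y ∉ K ∧ ∃ k : ℕ, orderOf y = r ^ k := by
  haveI := Fact.mk hr
  by_contra hne
  push Not at hne
  obtain ⟨P⟩ : Nonempty (Sylow r H) := inferInstance
  have hle : (P : Subgroup H) ≤ K.subgroupOf H := fun y hy => by
    obtain ⟨k, hk⟩ := IsPGroup.iff_orderOf.1 P.2 ⟨y, hy⟩
    by_contra hyK
    refine hne y.1 y.2 (fun hmem => hyK hmem) k ?_
    rw [← hk]
    simp
  exact P.not_dvd_index (h.trans (Subgroup.index_dvd_of_le hle))

lemma exists_primary {K H : Subgroup G} (h : ¬ H ≤ K) :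
    ∃ r : ℕ, r.Prime ∧ ∃ y ∈ H, y ∉ K ∧ ∃ k : ℕ, orderOf y = r ^ k := by
  obtain ⟨r, hr, hdvd⟩ := Nat.exists_prime_and_dvd
    (fun e => h (Subgroup.relIndex_eq_one.1 e) : K.relIndex H ≠ 1)
  exact ⟨r, hr, exists_mem_of_dvd_relIndex hr hdvd⟩

lemma mem_zpowers_mul {x y : G} (hc : Commute x y) (hco : (orderOf x).Coprime (orderOf y)) :
    x ∈ Subgroup.zpowers (x * y) := by
  obtain ⟨j, hj⟩ := exists_pow_eq_self_of_coprime hco.symm
  refine ⟨((orderOf y * j : ℕ) : ℤ), ?_⟩
  simp only [zpow_natCast]
  rw [pow_mul, hc.mul_pow, pow_orderOf_eq_one, mul_one]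
  exact hj

lemma eq_of_isolated_le {T : ℕ} (hT : Isolated G T) {x y : G} (hx : idx x = T)
    (hy : y ∉ Subgroup.center G)
    (h : Subgroup.centralizer ({x} : Set G) ≤ Subgroup.centralizer {y}) :
    Subgroup.centralizer ({x} : Set G) = Subgroup.centralizer {y} :=
  cent_eq_of_le h (by
    rw [hx, hT.2 y (fun e => hy (idx_eq_one_iff.1 e)) (Or.inl (hx ▸ idx_dvd h))])

/-- An element of order prime to `l` commuting with an `l`-element of isolated class size is central
in its centraliser. -/
lemma le_cent_of_coprime {T : ℕ} (hT : Isolated G T) {x y : G} (hx : idx x = T) {l : ℕ}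
    (hl : l.Prime) (hxl : ∃ k : ℕ, orderOf x = l ^ k) (hy : y ∈ Subgroup.centralizer ({x} : Set G))
    (hyl : ¬ l ∣ orderOf y) :
    Subgroup.centralizer ({x} : Set G) ≤ Subgroup.centralizer {y} := by
  obtain ⟨k, hk⟩ := hxl
  have hc : Commute x y := (mem_cent.1 hy).symm
  have hco : (orderOf x).Coprime (orderOf y) := hk ▸ (hl.coprime_iff_not_dvd.2 hyl).pow_left k
  have h1 : Subgroup.centralizer ({x * y} : Set G) ≤ Subgroup.centralizer {x} := by
    intro g hg
    obtain ⟨j, hj⟩ := mem_zpowers_mul hc hco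
    have h2 : Commute g (x * y) := mem_cent.1 hg
    have h3 : Commute g x := hj ▸ h2.zpow_right j
    exact mem_cent.2 h3.eq
  have hne : idx (x * y) ≠ 1 := fun e => hT.1 (Nat.dvd_one.1 (e ▸ hx ▸ idx_dvd h1))
  have e := cent_eq_of_le h1 (by
    rw [hx, hT.2 _ hne (Or.inr (hx ▸ idx_dvd h1))])
  intro g hg
  have hgx : Commute g x := mem_cent.1 hg
  have hgxy : Commute g (x * y) := mem_cent.1 (e ▸ hg)
  have := hgx.inv_right.mul_right hgxy
  rw [← mul_assoc, inv_mul_cancel, one_mul] at this
  exact mem_cent.2 this.eq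

/-- The centraliser of an element of isolated class size is abelian, unless it is a prime power
modulo the centre. -/
theorem commute_or_isPrimePow {T : ℕ} (hT : Isolated G T) {x : G} (hx : idx x = T) :
    (∀ a ∈ Subgroup.centralizer ({x} : Set G), ∀ b ∈ Subgroup.centralizer ({x} : Set G),
      Commute a b) ∨ IsPrimePow (quo x) := by
  -- replace `x` by a primary part
  have hxZ : ¬ Subgroup.zpowers x ≤ Subgroup.center G := fun h =>
    hT.1 (hx ▸ idx_eq_one_iff.2 (h (Subgroup.mem_zpowers x)))
  obtain ⟨l, hl, x', hx'x, hx'Z, hx'l⟩ := exists_primary hxZ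
  have hle : Subgroup.centralizer ({x} : Set G) ≤ Subgroup.centralizer {x'} := fun g hg => by
    obtain ⟨j, rfl⟩ := hx'x
    have h2 : Commute g x := mem_cent.1 hg
    exact mem_cent.2 (h2.zpow_right j).eq
  have he := eq_of_isolated_le hT hx hx'Z hle
  have hx' : idx x' = T := by simp only [idx] at hx ⊢; rw [← he]; exact hx
  simp only [quo]
  rw [he]
  set C := Subgroup.centralizer ({x'} : Set G) with hC
  by_cases hall : ∀ y ∈ C, ¬ l ∣ orderOf y → y ∈ Subgroup.center G
  · right
    have hne : (Subgroup.center G).relIndex C ≠ 1 := fun e => hx'Z (Subgroup.relIndex_eq_one.1 e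
      (by rw [hC]; exact mem_cent.2 rfl))
    have hpr : ∀ r : ℕ, r.Prime → r ∣ (Subgroup.center G).relIndex C → r = l := by
      intro r hr hdvd
      by_contra hne'
      obtain ⟨y, hyC, hyZ, k, hk⟩ := exists_mem_of_dvd_relIndex hr hdvd
      refine hyZ (hall y hyC fun h => hne' ?_)
      rw [hk] at h
      exact ((Nat.prime_dvd_prime_iff_eq hl hr).1 (hl.dvd_of_dvd_pow h)).symm
    have h := Nat.eq_prime_pow_of_unique_prime_dvd
      (Nat.pos_iff_ne_zero.1 (Nat.pos_of_ne_zero Subgroup.index_ne_zero_of_finite :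
        0 < (Subgroup.center G).relIndex C)) (fun {d} hd hdd => hpr d hd hdd)
    exact ⟨l, _, hl.prime, Nat.pos_of_ne_zero fun e => hne (by rw [h, e, pow_zero]), h.symm⟩
  · left
    push Not at hall
    obtain ⟨y, hyC, hyl, hyZ⟩ := hall
    have hyZ' : ¬ Subgroup.zpowers y ≤ Subgroup.center G := fun h => hyZ (h (Subgroup.mem_zpowers y))
    obtain ⟨r, hr, y', hy'y, hy'Z, k, hk⟩ := exists_primary hyZ'
    have hy'C : y' ∈ C := Subgroup.zpowers_le.2 hyC hy'y
    have hy'l : ¬ l ∣ orderOf y' := fun h => hyl (h.trans (orderOf_dvd_of_mem_zpowers hy'y))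
    have hrl : r ≠ l := by
      rintro rfl
      rcases Nat.eq_zero_or_pos k with rfl | hkpos
      · exact hy'Z (by rw [pow_zero, orderOf_eq_one_iff] at hk; rw [hk]; exact one_mem _)
      · exact hy'l (hk ▸ dvd_pow_self r hkpos.ne')
    have hey := eq_of_isolated_le hT hx' hy'Z (le_cent_of_coprime hT hx' hl hx'l hy'C hy'l)
    have hidy : idx y' = T := by simp only [idx] at hx' ⊢; rw [← hey]; exact hx'
    intro a ha b hb
    by_contra hab
    have hza : ¬ Subgroup.zpowers a ≤ Subgroup.centralizer ({b} : Set G) := fun h =>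
      hab (mem_cent.1 (h (Subgroup.mem_zpowers a)))
    obtain ⟨s, hs, a', ha'a, ha'b, j, hj⟩ := exists_primary hza
    have ha'C : a' ∈ C := Subgroup.zpowers_le.2 ha ha'a
    apply ha'b
    by_cases hsl : l ∣ orderOf a'
    · have hsl' : s = l := by
        rw [hj] at hsl
        exact ((Nat.prime_dvd_prime_iff_eq hl hs).1 (hl.dvd_of_dvd_pow hsl)).symm
      have hnr : ¬ r ∣ orderOf a' := fun h => hrl (by
        rw [hj, hsl'] at h
        exact (Nat.prime_dvd_prime_iff_eq hr hl).1 (hr.dvd_of_dvd_pow h))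
      have hb' : b ∈ Subgroup.centralizer ({y'} : Set G) := hey ▸ hb
      have := le_cent_of_coprime hT hidy hr ⟨k, hk⟩ (hey ▸ ha'C) hnr hb'
      exact mem_cent.2 (mem_cent.1 this).symm
    · have := le_cent_of_coprime hT hx' hl hx'l ha'C hsl hb
      exact mem_cent.2 (mem_cent.1 this).symm

/-- No prime divides the centraliser order of an element of isolated class size `T` modulo the
centre and is prime to a class size not dividing `T`. -/
theorem false_of_prime {T X r : ℕ} (hr : r.Prime) (hT : Isolated G T) {x w : G} (hx : idx x = T)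
    (hq : ¬ IsPrimePow (quo x)) (hrx : r ∣ quo x) (hw : idx w = X) (hXT : ¬ X ∣ T) (hrX : ¬ r ∣ X) :
    False := by
  haveI := Fact.mk hr
  have hab := (commute_or_isPrimePow hT hx).resolve_right hq
  obtain ⟨u, huC, huZ, k, hk⟩ := exists_mem_of_dvd_relIndex hr hrx
  have he := eq_of_isolated_le hT hx huZ (fun g hg => mem_cent.2 (hab g hg u huC).eq)
  obtain ⟨R⟩ : Nonempty (Sylow r (Subgroup.centralizer ({w} : Set G))) := inferInstance
  set R' := (R : Subgroup (Subgroup.centralizer ({w} : Set G))).map (Subgroup.subtype _) with hR'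
  have hR'p : IsPGroup r R' := R.2.map _
  have hR'idx : ¬ r ∣ R'.index := by
    rw [hR', Subgroup.index_map_subtype]
    intro h
    rcases hr.dvd_mul.1 h with h | h
    · exact R.not_dvd_index h
    · exact hrX (hw ▸ h)
  let P : Sylow r G := hR'p.toSylow hR'idx
  obtain ⟨Q, hQ⟩ := IsPGroup.exists_le_sylow (p := r) (P := Subgroup.zpowers u)
    (IsPGroup.of_card (n := k) (by rw [Nat.card_zpowers, hk]))
  obtain ⟨g, hg⟩ := MulAction.exists_smul_eq G Q P
  have hmem : g * u * g⁻¹ ∈ (P : Subgroup G) := by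
    rw [← hg, Sylow.coe_subgroup_smul]
    exact ⟨u, hQ (Subgroup.mem_zpowers u), rfl⟩
  have hmem' : g * u * g⁻¹ ∈ Subgroup.centralizer ({w} : Set G) := Subgroup.map_subtype_le _ hmem
  have hw' : g⁻¹ * w * g ∈ Subgroup.centralizer ({x} : Set G) := by
    rw [he, mem_cent]
    have h := mem_cent.1 hmem'
    calc g⁻¹ * w * g * u = g⁻¹ * (w * (g * u * g⁻¹)) * g := by group
      _ = g⁻¹ * (g * u * g⁻¹ * w) * g := by rw [h]
      _ = u * (g⁻¹ * w * g) := by group
  apply hXT
  rw [← hw, ← hx]
  have h1 := idx_dvd (x := x) (y := g⁻¹ * w * g) fun a ha => mem_cent.2 (hab a ha _ hw').eq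
  have h2 := idx_conj g⁻¹ w
  rw [inv_inv] at h2
  rwa [h2] at h1

end Cfsg.Agent.H44.ClassSizes
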